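import Mathlib
import Cfsg.Agent.Lib.PLocal.FPF
import Cfsg.Agent.Lib.PLocal.ChiefComm
import Cfsg.Agent.Lib.Coprime.Gaschutz

/-!
# Hall–Higman Theorem B for abelian Sylow subgroups
-/

namespace Cfsg.Lib.PLocal

open Subgroup Cfsg.Lib.Transfer Polynomial
open scoped commutatorElement

variable {G : Type*} [Group G] {p : ℕ} [hp : Fact p.Prime]

theorem geom_sum_eq_sub_one_pow {R : Type*} [Ring R] [Algebra (ZMod p) R] (x : R) :
    ∑ i ∈ Finset.range p, x ^ i = (x - 1) ^ (p - 1) := by
  have h : ∑ i ∈ Finset.range p, (X : (ZMod p)[X]) ^ i = (X - 1) ^ (p - 1) := by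
    have h0 : (X - 1 : (ZMod p)[X]) ≠ 0 := by simpa using X_sub_C_ne_zero (1 : ZMod p)
    refine mul_right_cancel₀ h0 ?_
    rw [geom_sum_mul, ← pow_succ, Nat.sub_add_cancel hp.out.one_le, sub_pow_char, one_pow]
  simpa [map_sum] using congrArg (aeval x) h

theorem sum_zpowers_eq [Finite G] {R : Type*} [AddCommMonoid R] (f : G → R) (g : G)
    [Fintype (zpowers g)] : ∑ r : zpowers g, f r = ∑ i ∈ Finset.range (orderOf g), f (g ^ i) := by
  rw [Finset.sum_range, ← (finEquivZPowers (isOfFinOrder_of_finite g)).sum_comp]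
  rfl

/-- An element `g` with `(g - 1) ^ (p - 1) = 0` centralizes the abelian `p'`-subgroups it
normalizes. -/
theorem mem_centralizer_of_sub_one_pow [Finite G] {R : Type*} [Ring R] [Algebra (ZMod p) R]
    {ρ : G →* R} (hρ : Function.Injective ρ) {g : G} (hg : (ρ g - 1) ^ (p - 1) = 0)
    {T : Subgroup G} (hT : IsMulCommutative T) (hc : (Nat.card T).Coprime p)
    (hgT : g ∈ normalizer (T : Set G)) : g ∈ centralizer (T : Set G) := by
  classical
  by_cases h1 : g = 1
  · exact h1 ▸ one_mem _
  have := Fintype.ofFinite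
  rw [← geom_sum_eq_sub_one_pow] at hg
  have h2 : orderOf g = p := orderOf_eq_prime (hρ (by
    rw [map_pow, map_one, ← sub_eq_zero, ← geom_sum_mul, hg, zero_mul])) h1
  have h3 : Nat.card (zpowers g) = p := by rw [Nat.card_zpowers, h2]
  have hn : zpowers g ≤ normalizer (T : Set G) := zpowers_le.mpr hgT
  have h4 := Coprime.centralizer_inf_commutator_eq_bot hT hn (h3 ▸ hc.symm)
  have h5 := Coprime.sum_kernel_eq_card ρ (K := ⁅T, zpowers g⁆) (R := zpowers g)
    (normalizer_commutator_ge_right _ _) (fpf_of_card_prime (h3 ▸ hp.out) (by rwa [inf_comm]))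
    (by rw [sum_zpowers_eq ρ g, h2]; simpa only [map_pow] using hg)
  have h6 : IsUnit ((Nat.card ↥⁅T, zpowers g⁆ : ℕ) : R) := by
    rw [← map_natCast (algebraMap (ZMod p) R)]
    refine IsUnit.map _ ((ZMod.isUnit_iff_coprime _ _).mpr ?_)
    exact Core.coprime_of_le (Coprime.commutator_le_of_le_normalizer hn) hc
  have h7 : ⁅T, zpowers g⁆ = ⊥ := eq_bot_iff.mpr fun k hk => hρ (by
    rw [map_one]
    refine h6.mul_right_cancel ?_
    rw [← h5, one_mul, Finset.mul_sum]
    exact Fintype.sum_equiv (Equiv.mulLeft (⟨k, hk⟩ : ↥⁅T, zpowers g⁆)) _ _ fun x =>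
      (map_mul ρ _ _).symm)
  rw [commutator_comm, commutator_eq_bot_iff_le_centralizer] at h7
  exact h7 (mem_zpowers g)

theorem eq_one_of_sub_one_pow [Finite G] {R : Type*} [Ring R] [Algebra (ZMod p) R]
    {ρ : G →* R} (hρ : Function.Injective ρ) {g : G} (hg : (ρ g - 1) ^ (p - 1) = 0)
    (hs : IsPSolvable p G) (h0 : pCore p G = ⊥)
    (hab : ∀ (q : ℕ) [Fact q.Prime], q ≠ p → ∀ T : Sylow q G, IsMulCommutative T) : g = 1 := by
  have h1 : g ^ p = 1 := hρ (by
    rw [map_pow, map_one, ← sub_eq_zero, ← geom_sum_mul, geom_sum_eq_sub_one_pow, hg, zero_mul])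
  have h2 : IsPGroup p (zpowers g) := (PGroup.elemAb_isPGroup (PGroup.elemAb_zpowers h1))
  have hc := Core.pPrimeCore_coprime p G
  have h3 : pPrimeCore p G ≤ centralizer (zpowers g : Set G) :=
    Coprime.le_of_forall_invariant_pgroup_le le_normalizer_of_normal
      (Core.coprime_card_of_isPGroup h2 hc) (Or.inl (by have := h2.isNilpotent; infer_instance))
      fun q P hq hP hPq _ hn => by
        have := Fact.mk hq
        by_cases hqp : q = p
        · subst hqp
          rw [Core.eq_bot_of_isPGroup_of_coprime hPq (Core.coprime_of_le hP hc)]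
          exact bot_le
        obtain ⟨T, hT⟩ := hPq.exists_le_sylow
        have := hab q hqp T
        exact le_centralizer_iff.mp (zpowers_le.mpr (mem_centralizer_of_sub_one_pow hρ hg
          (⟨⟨fun a b => Subtype.ext (setLike_mul_comm (s := (T : Subgroup G)) (hT a.2) (hT b.2))⟩⟩)
          (Core.coprime_of_le hP hc) (hn (mem_zpowers g))))
  have h4 := (le_centralizer_iff.mp h3).trans (Core.centralizer_pPrimeCore_le_of_isPSolvable hs h0)
  exact zpowers_eq_bot.mp (Core.eq_bot_of_isPGroup_of_coprime h2 (Core.coprime_of_le h4 hc))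

theorem ElemAbCoord.sub_one_pow_mulVec_mem {V : Subgroup G} (c : ElemAbCoord p V)
    (g : normalizer (V : Set G)) (k : ℕ) (u : Fin c.n → ZMod p) :
    c.e (Matrix.mulVec ((c.ρ g - 1) ^ k) u) ∈ iterCommutator V (zpowers (g : G)) k := by
  induction k with
  | zero => simpa [PGroup.iterCommutator_zero] using c.mem u
  | succ k ih =>
    rw [pow_succ', ← Matrix.mulVec_mulVec, c.sub_one_mulVec, PGroup.iterCommutator_succ, commutator_comm]
    exact commutator_mem_commutator (mem_zpowers _) ih

/-- Hall–Higman Theorem B (abelian case) for a minimal normal subgroup. -/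
theorem mem_centralizer_of_engel [Finite G] {V : Subgroup G} [V.Normal] (hV : Core.IsMinNormal V)
    (hVp : IsPGroup p V) (hs : IsPSolvable p G)
    (hab : ∀ (q : ℕ) [Fact q.Prime], q ≠ p → ∀ T : Sylow q G, IsMulCommutative T) {g : G}
    (hg : iterCommutator V (zpowers g) (p - 1) = ⊥) : g ∈ centralizer (V : Set G) := by
  obtain ⟨c⟩ := nonempty_elemAbCoord (hV.isElementaryAbelian_of_isPGroup hVp)
  let ρ := c.ρ.comp ((MonoidHom.id G).codRestrict _ fun x => le_normalizer_of_normal (mem_top x))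
  have hρ : ∀ x, ρ x = 1 ↔ x ∈ centralizer (V : Set G) := fun x => c.rho_eq_one_iff _
  let ρ' := QuotientGroup.lift (centralizer (V : Set G)) ρ fun x hx => (hρ x).mpr hx
  rw [← QuotientGroup.eq_one_iff]
  refine eq_one_of_sub_one_pow (p := p) (ρ := ρ') ((injective_iff_map_eq_one _).mpr fun x hx => ?_)
    ?_ (Core.isPSolvable_quotient hs _) (pCore_quotient_centralizer_eq_bot_of_isMinNormal hV hVp)
    fun q _ hq => isMulCommutative_sylow_of_hasSection (hasSection_quotient _) (hab q hq)
  · obtain ⟨x, rfl⟩ := QuotientGroup.mk_surjective x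
    exact (QuotientGroup.eq_one_iff x).mpr ((hρ x).mp hx)
  · refine Matrix.ext_of_mulVec_single fun i => ?_
    have := c.sub_one_pow_mulVec_mem ⟨g, le_normalizer_of_normal (mem_top g)⟩ (p - 1)
      (Pi.single i 1)
    rw [hg, mem_bot, c.eq_one_iff] at this
    rw [Matrix.zero_mulVec]
    exact this

/-- Hall–Higman Theorem B (abelian case) for a chief factor. -/
theorem commutator_le_of_engel [Finite G] {U V : Subgroup G} (hUV : IsChiefFactor U V)
    (hU : IsPGroup p U) (hs : IsPSolvable p G)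
    (hab : ∀ (q : ℕ) [Fact q.Prime], q ≠ p → ∀ T : Sylow q G, IsMulCommutative T) {g : G}
    (hg : iterCommutator U (zpowers g) (p - 1) ≤ V) : ⁅U, zpowers g⁆ ≤ V := by
  have := hUV.2.2.1
  have hW := Core.isMinNormal_map_mk'_of_isChiefFactor hUV
  have := hW.normal
  have h3 := mem_centralizer_of_engel hW (hU.map _) (Core.isPSolvable_quotient hs _)
    (fun q _ hq => isMulCommutative_sylow_of_hasSection (hasSection_quotient _) (hab q hq))
    (g := QuotientGroup.mk' V g) (by
      rw [← MonoidHom.map_zpowers, ← PGroup.map_iterCommutator, Core.map_mk'_eq_bot_iff]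
      exact hg)
  rw [Core.commutator_le_iff_map_mk', MonoidHom.map_zpowers, commutator_comm,
    commutator_eq_bot_iff_le_centralizer]
  exact zpowers_le_of_mem h3

end Cfsg.Lib.PLocal
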