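import Cfsg.Agent.Lib.PSL2.Proper
import Cfsg.Agent.Lib.Extraspecial.Basic
import Cfsg.Agent.Lib.Transfer.Fusion

/-!
# Groups with an extraspecial Sylow subgroup of order `p³`: the number of radical planes
-/

set_option autoImplicit false

namespace Cfsg.Lib.Esp3

open Subgroup Cfsg.Lib.PSL2 Cfsg.Lib.ES Cfsg.Lib.Transfer Matrix
open scoped MatrixGroups commutatorElement LinearAlgebra.Projectivization

section PGL

variable {F : Type} [Field F] [Finite F] {H : Subgroup PGL(2, F)}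

theorem small_of_three (p : ℕ) [Fact p.Prime] [CharP F p] (hH : (Nat.card H).Coprime p)
    {x : Fin 3 → P1 F} (hx : Function.Injective x)
    (h : ∀ i, ∃ g ∈ H, g • x i = x i ∧ g ^ 2 ≠ 1) :
    Nonempty (H ≃* alternatingGroup (Fin 4)) ∨ Nonempty (H ≃* Equiv.Perm (Fin 4)) ∨
      Nonempty (H ≃* alternatingGroup (Fin 5)) := by
  refine (dickson_pgl_coprime (AlgebraicClosure F) p H hH).resolve_left ?_
  rintro ⟨a, b, m, ht, hd⟩
  have key : ∀ i, emb (algebraMap F _) (x i) = a ∨ emb (algebraMap F _) (x i) = b := fun i => by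
    obtain ⟨g, hg, h1, h2⟩ := h i
    by_contra! e
    have h3 := (pglMap_smul_emb_eq_iff (algebraMap F (AlgebraicClosure F)) g _ _).2 h1
    refine h2 (toK_injective (K := AlgebraicClosure F) ?_)
    rw [map_one, map_pow, sq]
    refine eq_one_of_fix_three ht.ne e.1.symm e.2.symm ?_ ?_ (by rw [mul_smul, h3, h3]) <;>
      rcases mem_dih.1 (hd hg) with ⟨e1, e2⟩ | ⟨e1, e2⟩ <;> simp [mul_smul, e1, e2]
  have ne : ∀ i j, i ≠ j → emb (algebraMap F (AlgebraicClosure F)) (x i) ≠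
      emb (algebraMap F _) (x j) := fun i j e => ((emb_injective _).comp hx).ne e
  have h1 := ne 0 1 (by decide)
  have h2 := ne 0 2 (by decide)
  have h3 := ne 1 2 (by decide)
  rcases key 0 with e | e <;> rcases key 1 with e' | e' <;> rcases key 2 with e'' | e'' <;>
    simp_all

theorem card_le_twelve (hH : Nonempty (H ≃* alternatingGroup (Fin 4)) ∨
    Nonempty (H ≃* Equiv.Perm (Fin 4)) ∨ Nonempty (H ≃* alternatingGroup (Fin 5)))
    (h : ∀ x : P1 F, ∃ g ∈ H, g • x = x ∧ g ^ 2 ≠ 1 ∧ g ^ 4 = 1) : Nat.card F + 1 ≤ 12 := by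
  classical
  have key : ∀ (X : Type) [Group X] [Fintype X] [DecidableEq X], (H ≃* X) →
      (Finset.univ.filter fun g : X => g ^ 2 ≠ 1 ∧ g ^ 4 = 1).card ≤ 6 → Nat.card F + 1 ≤ 12 := by
    intro X _ _ _ e hX
    choose g h1 h2 h3 h4 using h
    have := Fintype.ofFinite (P1 F)
    rw [← card_P1, Nat.card_eq_fintype_card]
    refine (Finset.card_le_mul_card_image_of_maps_to (f := fun x => e ⟨g x, h1 x⟩)
      (t := Finset.univ.filter fun g : X => g ^ 2 ≠ 1 ∧ g ^ 4 = 1) (fun x _ => ?_) 2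
      fun y _ => ?_).trans (by omega)
    · simp only [Finset.mem_filter, Finset.mem_univ, true_and, ← map_pow, ne_eq,
        EmbeddingLike.map_eq_one_iff, Subtype.ext_iff]
      exact ⟨h3 x, h4 x⟩
    · by_contra! hc
      obtain ⟨a, ha, b, hb, c, hc, n1, n2, n3⟩ := Finset.two_lt_card.1 hc
      simp only [Finset.mem_filter, Finset.mem_univ, true_and] at ha hb hc
      have e1 : g b = g a := congrArg Subtype.val (e.injective (hb.trans ha.symm))
      have e2 : g c = g a := congrArg Subtype.val (e.injective (hc.trans ha.symm))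
      exact h3 a (by rw [eq_one_of_fix_three n1 n2 n3 (h2 a) (e1 ▸ h2 b) (e2 ▸ h2 c), one_pow])
  rcases hH with ⟨⟨e⟩⟩ | ⟨⟨e⟩⟩ | ⟨⟨e⟩⟩ <;> exact key _ e (by decide +kernel)

end PGL

variable {p : ℕ} [hp : Fact p.Prime]

section Ext

variable {E : Type*} [Group E] (D : Ext p E (Fin 2 → ZMod p)) (hB : D.B.Nondegenerate)
include hB

theorem exists_rho : ∃ ρ : MulAut E →* GL (Fin 2) (ZMod p), ∀ α x,
    (ρ α : Matrix _ _ _) *ᵥ D.π x = D.π (α x) := by
  have h0 : ∀ (α : MulAut E) a, D.π (α (D.ι a)) = 0 := fun α a => by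
    rw [← D.mem_Z, ← D.nondegenerate_iff.1 hB, mem_center_iff]
    intro g
    obtain ⟨g, rfl⟩ := α.surjective g
    rw [← map_mul, ← map_mul, D.ι_comm]
  choose f hf using fun α : MulAut E => D.exists_lift (fun x => D.π (α x))
    (fun x y => by rw [map_mul, D.π_mul]) (h0 α)
  let r : MulAut E →* Module.End (ZMod p) (Fin 2 → ZMod p) :=
    { toFun := f
      map_one' := D.linearMap_ext fun x => by simp [hf]
      map_mul' := fun a b => D.linearMap_ext fun x => by simp [hf] }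
  exact ⟨((LinearMap.toMatrixAlgEquiv' (R := ZMod p) (n := Fin 2)).toMulEquiv.toMonoidHom.comp
    r).toHomUnits, fun α x => by simp [r, ← hf, LinearMap.toMatrixAlgEquiv']⟩

theorem cube_eq_one {ρ : MulAut E →* GL (Fin 2) (ZMod p)}
    (hρ : ∀ α x, (ρ α : Matrix _ _ _) *ᵥ D.π x = D.π (α x)) {α : MulAut E} {l m : ZMod p} {x : E}
    (h1 : ∀ a, α (D.ι a) = D.ι (l * a)) (h2 : D.π (α x) = m • D.π x) (hx : D.π x ≠ 0)
    (hlm : l * m = 1) {k : ℕ} (hk : (ProjGenLinGroup.mk (ρ α) : PGL(2, ZMod p)) ^ k = 1) :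
    l ^ (3 * k) = 1 := by
  have e1 : ∀ k a, (α ^ k) (D.ι a) = D.ι (l ^ k * a) := fun k => by
    induction k with
    | zero => simp
    | succ k ih => intro a; rw [pow_succ', MulAut.mul_apply, ih, h1, pow_succ', mul_assoc]
  have e2 : ∀ k, D.π ((α ^ k) x) = m ^ k • D.π x := fun k => by
    induction k with
    | zero => simp
    | succ k ih =>
      rw [pow_succ', MulAut.mul_apply, ← hρ, ih, mulVec_smul, hρ, h2, smul_smul, pow_succ]
  rw [← map_pow, ← map_pow, pgl_mk_eq_one_iff] at hk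
  have e3 : ∀ y, D.π ((α ^ k) y) = ρ (α ^ k) 0 0 • D.π y := fun y => by
    rw [← hρ]
    ext i
    fin_cases i <;> simp [mulVec, dotProduct, -map_pow, hk.1, hk.2.1, ← hk.2.2]
  have e4 : ρ (α ^ k) 0 0 = m ^ k := smul_left_injective _ hx ((e3 x).symm.trans (e2 k))
  obtain ⟨v, hv⟩ : ∃ v, D.B (D.π x) v ≠ 0 := by
    by_contra! e
    exact hx (hB.1 _ e)
  obtain ⟨y, rfl⟩ := D.π_surj v
  have e5 := map_commutatorElement (α ^ k) x y
  rw [D.comm_eq, D.comm_eq, e1, e3, e3, e4] at e5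
  have e6 := D.ι_inj e5
  simp only [map_smul, LinearMap.smul_apply, smul_eq_mul, ← mul_assoc] at e6
  have e7 := mul_right_cancel₀ hv e6
  have e8 : l ^ k * m ^ k = 1 := by rw [← mul_pow, hlm, one_pow]
  rw [mul_comm, pow_mul]
  linear_combination (l ^ k) ^ 2 * e7 + (l ^ k * m ^ k + 1) * e8

end Ext

variable {G : Type*} [Group G]

/-- The elements centralising `Z` and `A / Z`. -/
def stab2 (A Z : Subgroup G) : Subgroup G where
  carrier := {k | k ∈ centralizer (Z : Set G) ∧ ∀ a ∈ A, ⁅k, a⁆ ∈ Z}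
  one_mem' := ⟨one_mem _, fun a _ => by simp⟩
  mul_mem' := fun {k l} hk hl => ⟨mul_mem hk.1 hl.1, fun a ha => by
    rw [show ⁅k * l, a⁆ = k * ⁅l, a⁆ * k⁻¹ * ⁅k, a⁆ by simp only [commutatorElement_def]; group,
      ← hk.1 _ (hl.2 a ha), mul_inv_cancel_right]
    exact mul_mem (hl.2 a ha) (hk.2 a ha)⟩
  inv_mem' := fun {k} hk => ⟨inv_mem hk.1, fun a ha => by
    rw [show ⁅k⁻¹, a⁆ = k⁻¹ * (⁅k, a⁆⁻¹ * k) by simp only [commutatorElement_def]; group,
      hk.1 _ (inv_mem (hk.2 a ha)), inv_mul_cancel_left]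
    exact inv_mem (hk.2 a ha)⟩

theorem exists_diag {x z : G} (hc : Commute x z) (hx : x ^ p = 1) {u v : G}
    (u1 : u * z * u⁻¹ = z) (u2 : u * x * u⁻¹ = z * x) (v1 : v * z * v⁻¹ = z * x)
    (v2 : v * x * v⁻¹ = x) {l m : ℕ} (h : (p : ℤ) ∣ (l + 1) * (m + 1) - 1) :
    ∃ g : G, g * z * g⁻¹ = z ^ (l + 1) ∧ g * x * g⁻¹ = z * x ^ (m + 1) := by
  have w2 : ∀ k : ℕ, MulAut.conj (v ^ k) x = x := fun k =>
    mul_inv_eq_iff_eq_mul.2 ((show Commute v x from mul_inv_eq_iff_eq_mul.1 v2).pow_left k)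
  have w1 : ∀ k : ℕ, MulAut.conj (v ^ k) z = z * x ^ k := fun k => by
    induction k with
    | zero => simp
    | succ k ih =>
      rw [pow_succ, map_mul, MulAut.mul_apply, MulAut.conj_apply v, v1, map_mul, ih, w2, pow_succ,
        mul_assoc]
  have u1' : MulAut.conj u z = z := u1
  have u2' : MulAut.conj u x = z * x := u2
  refine ⟨v ^ m * u * v ^ l, ?_, ?_⟩ <;> rw [← MulAut.conj_apply, map_mul, map_mul,
    MulAut.mul_apply, MulAut.mul_apply]
  · have a1 := w1 m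
    have a2 := w2 m
    rw [w1]
    generalize MulAut.conj (v ^ m) = f at a1 a2 ⊢
    simp only [a1, a2, map_mul, map_pow, u1', u2']
    obtain ⟨c, hc'⟩ := h
    have e : x ^ (m + (m + 1) * l) = 1 := by
      rw [← _root_.zpow_natCast, show ((m + (m + 1) * l : ℕ) : ℤ) = p * c by push_cast; linear_combination hc',
        _root_.zpow_mul, _root_.zpow_natCast, hx, _root_.one_zpow]
    rw [mul_assoc z (x ^ m) x, ← pow_succ, (hc.symm.pow_right _).mul_pow, ← pow_mul, mul_assoc, ← mul_assoc (x ^ m),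
      (hc.pow_pow m l).eq, mul_assoc, ← pow_add, e, mul_one, pow_succ']
  · simp only [w1, w2, map_mul, u2', pow_succ, mul_assoc]

theorem exists_aut {A : Type*} [CommGroup A] [Finite A] (hA : Nat.card A = p ^ 2) {x z : A}
    (hx : orderOf x = p) (hz : z ∉ zpowers x) :
    ∃ φ : MulAut A, orderOf φ = p ∧ φ x = x ∧ φ z = z * x := by
  have hc : Nat.card (A ⧸ zpowers x) = p := by
    have := (zpowers x).card_mul_index
    rw [Nat.card_zpowers, hx, hA, sq] at this
    exact Nat.eq_of_mul_eq_mul_left hp.out.pos this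
  have h1 : (z : A ⧸ zpowers x) ≠ 1 := fun e => hz ((QuotientGroup.eq_one_iff _).1 e)
  have h2 : ∀ y, y ∈ zpowers (z : A ⧸ zpowers x) := fun y => mem_zpowers_of_prime_card hc h1
  have h3 : orderOf x ∣ orderOf (z : A ⧸ zpowers x) := by
    rw [orderOf_eq_card_of_forall_mem_zpowers h2, hc, hx]
  let θ : A →* A := (monoidHomOfForallMemZpowers h2 h3).comp (QuotientGroup.mk' _)
  have t1 : θ z = x := monoidHomOfForallMemZpowers_apply_gen h2 h3
  have t2 : ∀ a, θ a ∈ zpowers x := fun a => ⟨_, rfl⟩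
  have t3 : ∀ a ∈ zpowers x, θ a = 1 := fun a ha => by
    simp [θ, (QuotientGroup.eq_one_iff _).2 ha]
  let φ : MulAut A := MonoidHom.toMulEquiv (MonoidHom.id A * θ) (MonoidHom.id A * θ⁻¹)
    (by ext a; simp [t3 _ (t2 a)]) (by ext a; simp [t3 _ (t2 a)])
  have e : ∀ a, φ a = a * θ a := fun a => rfl
  have e' : ∀ (k : ℕ) a, (φ ^ k) a = a * θ a ^ k := fun k a => by
    induction k with
    | zero => simp
    | succ k ih => rw [pow_succ', MulAut.mul_apply, ih, e, map_mul, map_pow, t3 _ (t2 a), one_pow,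
        mul_one, pow_succ, mul_assoc]
  refine ⟨φ, orderOf_eq_prime (MulEquiv.ext fun a => ?_) fun h => ?_, by
    rw [e, t3 _ (mem_zpowers x), mul_one], by rw [e, t1]⟩
  · obtain ⟨k, hk⟩ := t2 a
    rw [e', ← hk, ← _root_.zpow_natCast, ← _root_.zpow_mul, mul_comm k, _root_.zpow_mul,
      _root_.zpow_natCast, ← hx, pow_orderOf_eq_one, _root_.one_zpow, mul_one, MulAut.one_apply]
  · have := e z
    rw [h, t1, MulAut.one_apply, left_eq_mul] at this
    exact hp.out.one_lt.ne (by rw [← hx, this, orderOf_one])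

variable [Finite G] {P : Sylow p G} (D : Ext p (P : Subgroup G) (Fin 2 → ZMod p))
  (hB : D.B.Nondegenerate)

/-- Some element centralises `x` and moves the central element `ι 1` by `x`. -/
def Good (x : P) : Prop := D.π x ≠ 0 ∧ (x : G) ^ p = 1 ∧
  ∃ g : G, g * D.ι 1 * g⁻¹ = D.ι 1 * x ∧ g * x * g⁻¹ = x

include hB in
theorem exists_conj_eq {x : P} (hx : D.π x ≠ 0) : ∃ u : P, u * x * u⁻¹ = D.ι 1 * x := by
  obtain ⟨v, hv⟩ : ∃ v, D.B v (D.π x) ≠ 0 := by
    by_contra! e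
    exact hx (hB.2 _ e)
  obtain ⟨u, hu⟩ := D.π_surj ((D.B v (D.π x))⁻¹ • v)
  exact ⟨u, by rw [D.conj_eq, hu, map_smul, LinearMap.smul_apply, smul_eq_mul, inv_mul_cancel₀ hv]⟩

include hB in
theorem Good.exists_norm {x : P} (h : Good D x) {l m : ZMod p} (hlm : l * m = 1) :
    ∃ n : normalizer ((P : Subgroup G) : Set G),
      (∀ a, (P : Subgroup G).normalizerMonoidHom n (D.ι a) = D.ι (l * a)) ∧
      D.π ((P : Subgroup G).normalizerMonoidHom n x) = m • D.π x := by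
  obtain ⟨hx, hxp, v, v1, v2⟩ := h
  obtain ⟨u, hu⟩ := exists_conj_eq D hB hx
  obtain ⟨l, rfl⟩ : ∃ k : ℕ, l = (k + 1 : ℕ) := ⟨(l - 1).val, by simp⟩
  obtain ⟨m, rfl⟩ : ∃ k : ℕ, m = (k + 1 : ℕ) := ⟨(m - 1).val, by simp⟩
  set z : G := ((D.ι 1 : P) : G) with hz
  have zc : ∀ y ∈ (P : Subgroup G), Commute y z := fun y hy =>
    congrArg Subtype.val (D.ι_comm 1 ⟨y, hy⟩).symm
  obtain ⟨g, g1, g2⟩ := exists_diag (zc x x.2) hxp (u := u) (mul_inv_eq_iff_eq_mul.2 (zc u u.2))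
    (congrArg Subtype.val hu) v1 v2 (l := l) (m := m) ((ZMod.intCast_zmod_eq_zero_iff_dvd _ p).1
      (by push_cast at hlm ⊢; rw [hlm, sub_self]))
  have n1 : g ∈ normalizer (zpowers z : Set G) := mem_normalizer_of_conj_le (by
    rw [MonoidHom.map_zpowers, zpowers_le]
    exact (g1 ▸ pow_mem (mem_zpowers z) _ : g * z * g⁻¹ ∈ _))
  have n2 : g ∈ normalizer ((zpowers z ⊔ zpowers (x : G) : Subgroup G) : Set G) :=
    mem_normalizer_of_conj_le (by
      rw [Subgroup.map_sup, MonoidHom.map_zpowers, MonoidHom.map_zpowers, sup_le_iff, zpowers_le, zpowers_le]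
      exact ⟨(g1 ▸ mem_sup_left (pow_mem (mem_zpowers z) _) : g * z * g⁻¹ ∈ _),
        (g2 ▸ mul_mem_sup (mem_zpowers z) (pow_mem (mem_zpowers _) _) : g * x * g⁻¹ ∈ _)⟩)
  have hZ : ∀ y : P, (y : G) ∈ zpowers z ↔ D.π y = 0 := fun y => by
    rw [← D.mem_Z, D.Z_eq_zpowers, hz, ← (P : Subgroup G).subtype_apply (D.ι 1),
      ← MonoidHom.map_zpowers]
    exact mem_map_iff_mem (P : Subgroup G).subtype_injective
  have hAP : zpowers z ⊔ zpowers (x : G) ≤ P := sup_le (zpowers_le.2 (D.ι 1).2) (zpowers_le.2 x.2)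
  have hP : (P : Subgroup G) ≤ stab2 (zpowers z ⊔ zpowers (x : G)) (zpowers z) := fun y hy =>
    ⟨le_centralizer_iff.1 (zpowers_le.2 (zc · ·)) hy, fun a ha =>
      (hZ ⁅⟨y, hy⟩, ⟨a, hAP ha⟩⁆).2 (D.π_commutator _ _)⟩
  obtain ⟨c, hc, hn⟩ := exists_mul_mem_normalizer_sylow P hP (g := g) (by
    rintro _ ⟨y, hy, rfl⟩
    refine ⟨fun w hw => ?_, fun a ha => ?_⟩
    · have := (hP hy).1 _ ((mem_normalizer_iff''.1 n1 w).1 hw)
      simp only [MulEquiv.coe_toMonoidHom, MulAut.conj_apply]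
      calc _ = g * (g⁻¹ * w * g * y) * g⁻¹ := by group
        _ = _ := by rw [this]; group
    · have := (mem_normalizer_iff.1 n1 _).1 ((hP hy).2 _ ((mem_normalizer_iff''.1 n2 a).1 ha))
      convert this using 1
      simp only [MulEquiv.coe_toMonoidHom, MulAut.conj_apply, commutatorElement_def]
      group)
  have e1 : (P : Subgroup G).normalizerMonoidHom ⟨_, hn⟩ (D.ι 1) = D.ι 1 ^ (l + 1) := by
    refine Subtype.ext ?_
    change c * g * z * (c * g)⁻¹ = z ^ (l + 1)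
    rw [show c * g * z * (c * g)⁻¹ = c * (g * z * g⁻¹) * c⁻¹ by group, g1,
      ← hc.1 _ (pow_mem (mem_zpowers z) _), mul_inv_cancel_right]
  refine ⟨⟨_, hn⟩, fun a => ?_, ?_⟩
  · rw [← ZMod.natCast_zmod_val a, D.ι_natCast, map_pow, e1, D.ι_natCast_mul, D.ι_natCast,
      ← pow_mul, ← pow_mul, mul_comm]
  · rw [← D.π_pow', eq_comm, ← neg_add_eq_zero, add_comm, ← sub_eq_add_neg, sub_eq_add_neg, ← D.π_inv,
      ← D.π_mul, ← hZ]
    change c * g * x * (c * g)⁻¹ * ((x : G) ^ (m + 1))⁻¹ ∈ _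
    rw [show c * g * x * (c * g)⁻¹ = ⁅c, g * x * g⁻¹⁆ * (g * x * g⁻¹) by
      simp only [commutatorElement_def]; group, mul_assoc]
    exact mul_mem (hc.2 _ ((mem_normalizer_iff.1 n2 _).1 (mem_sup_right (mem_zpowers _))))
      (by rw [g2, mul_inv_cancel_right]; exact mem_zpowers z)

include hB in
/-- The group induced on the projective line of `P / Z(P)`. -/
theorem exists_pgl : ∃ H : Subgroup PGL(2, ZMod p), (Nat.card H).Coprime p ∧
    ∀ (x : P) (h : Good D x), ∃ g ∈ H, g • Projectivization.mk (ZMod p) (D.π x) h.1 =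
      Projectivization.mk (ZMod p) (D.π x) h.1 ∧ ∀ k, g ^ k = 1 → p - 1 ∣ 3 * k := by
  obtain ⟨ρ, hρ⟩ := exists_rho D hB
  let φ : normalizer ((P : Subgroup G) : Set G) →* PGL(2, ZMod p) :=
    ProjGenLinGroup.mk.comp (ρ.comp (P : Subgroup G).normalizerMonoidHom)
  refine ⟨φ.range, ?_, fun x h => ?_⟩
  · have h1 : (P : Subgroup G).subgroupOf _ ≤ φ.ker := fun n hn => by
      have : ρ ((P : Subgroup G).normalizerMonoidHom n) = 1 := by
        ext1
        refine Matrix.toLin'.injective (D.linearMap_ext fun y => ?_)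
        rw [toLin'_apply, hρ, toLin'_apply, Units.val_one, one_mulVec]
        exact D.π_conj ⟨n, hn⟩ y
      simp [φ, MonoidHom.mem_ker, this]
    rw [← index_ker]
    exact ((hp.out.coprime_iff_not_dvd.2 (sylow_not_dvd_relIndex P le_normalizer)).symm).of_dvd_left
      (index_dvd_of_le h1)
  obtain ⟨l, hl⟩ := IsCyclic.exists_ofOrder_eq_natCard (α := (ZMod p)ˣ)
  obtain ⟨n, h1, h2⟩ := h.exists_norm D hB l.mul_inv
  refine ⟨φ n, ⟨n, rfl⟩, ?_, fun k hk => ?_⟩
  · exact (Projectivization.mk_eq_mk_iff _ _ _ _ _).2 ⟨l⁻¹, h2.symm.trans (hρ _ _).symm⟩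
  · rw [Nat.card_eq_fintype_card, ZMod.card_units] at hl
    rw [← hl, orderOf_dvd_iff_pow_eq_one, Units.ext_iff, Units.val_pow_eq_pow_val]
    exact cube_eq_one D hB hρ h1 h2 h.1 l.mul_inv hk

include hB in
theorem small_of_good (h7 : 7 < p) {x : Fin 3 → P} (h : ∀ i, Good D (x i))
    (hx : Function.Injective fun i => Projectivization.mk (ZMod p) (D.π (x i)) (h i).1) :
    p ≤ 13 := by
  obtain ⟨H, h1, h2⟩ := exists_pgl D hB
  have h3 := small_of_three p h1 hx fun i => (h2 _ (h i)).imp fun g hg =>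
    ⟨hg.1, hg.2.1, fun e => by have := Nat.le_of_dvd (by omega) (hg.2.2 2 e); omega⟩
  obtain ⟨g, hg, -, h4⟩ := h2 _ (h 0)
  have h5 := orderOf_le_five_of_equiv h3 hg
  have h6 := Nat.le_of_dvd (Nat.mul_pos three_pos (orderOf_pos g)) (h4 _ (pow_orderOf_eq_one g))
  have := hp.out
  by_contra! e
  obtain rfl | rfl | rfl : p = 14 ∨ p = 15 ∨ p = 16 := by omega
  all_goals exact absurd this (by decide)

include hB in
theorem small_of_all (h : ∀ x : P, D.π x ≠ 0 → Good D x) : p ≤ 7 := by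
  by_contra! h7
  obtain ⟨H, h1, h2⟩ := exists_pgl D hB
  have h0 : ∀ a : P1 (ZMod p), ∃ g ∈ H, g • a = a ∧ ∀ k, g ^ k = 1 → p - 1 ∣ 3 * k := fun a => by
    obtain ⟨x, hx⟩ := D.π_surj a.rep
    have := h2 x (h x (hx ▸ a.rep_nonzero))
    simpa only [hx, Projectivization.mk_rep] using this
  have h3 := small_of_three p h1 (x := ![inf, pt 0, pt 1]) (by
    intro i j
    fin_cases i <;> fin_cases j <;> simp [pt_ne_inf, inf_ne_pt, pt_inj]) fun i =>
      (h0 _).imp fun g hg =>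
        ⟨hg.1, hg.2.1, fun e => by have := Nat.le_of_dvd (by omega) (hg.2.2 2 e); omega⟩
  have h4 : ∀ g ∈ H, (∀ k, g ^ k = 1 → p - 1 ∣ 3 * k) → orderOf g = 4 ∧ p = 13 := fun g hg e => by
    have h5 := orderOf_le_five_of_equiv h3 hg
    have h6 := e _ (pow_orderOf_eq_one g)
    have h7' := orderOf_pos g
    have h8 := Nat.le_of_dvd (by omega) h6
    have h9 := hp.out
    have : p ≤ 16 := by omega
    generalize orderOf g = o at *
    clear * - h5 h6 h7 h8 h9 this h7'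
    interval_cases p <;> first | exact absurd h9 (by decide) | omega
  have := card_le_twelve h3 fun a => by
    obtain ⟨g, hg, e1, e2⟩ := h0 a
    refine ⟨g, hg, e1, fun e => ?_, (h4 g hg e2).1 ▸ pow_orderOf_eq_one g⟩
    have := orderOf_dvd_of_pow_eq_one e
    rw [(h4 g hg e2).1] at this
    omega
  obtain ⟨g, hg, -, e⟩ := h0 inf
  rw [Nat.card_zmod, (h4 g hg e).2] at this
  omega

end Cfsg.Lib.Esp3
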