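import Cfsg.Agent.Lib.PLocal.Engel
import Cfsg.Agent.Lib.PLocal.Replacement
import Cfsg.Agent.Lib.PGroup.SectionRep
import Cfsg.Agent.Lib.Coprime.Generation

/-!
# Normality of the Thompson subgroup `J(S)` (abelian version) for `p ≥ 5`
-/

set_option autoImplicit false

namespace Cfsg.Lib.PLocal

open Subgroup Cfsg.Lib.Transfer
open scoped commutatorElement

variable {G : Type*} [Group G] {p : ℕ} {P A M : Subgroup G}

theorem alt_vanish {M : Type*} [AddCommGroup M] (h : M →+ M) (F : ℕ → ℕ → M)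
    (h1 : ∀ i j, h (F i j) = F (i + 1) (j + 1) + F (i + 1) j + F i (j + 1) + F i j)
    (h2 : ∀ i j, h (h (F i j)) + F i j = h (F i j) + h (F i j)) (h3 : ∀ i, F i i = 0)
    (h4 : ∀ i j, F j i = -F i j) (h5 : ∀ i j, 5 ≤ j → F i j = 0) :
    F 2 3 = 0 ∧ F 2 4 = 0 ∧ F 3 4 = 0 := by
  have e : ∀ i j, F (i + 2) j + 2 • F (i + 1) (j + 1) + F i (j + 2) + 2 • F (i + 2) (j + 1) +
      2 • F (i + 1) (j + 2) + F (i + 2) (j + 2) = 0 := fun i j => by
    have := h2 i j
    simp only [h1, map_add, add_assoc i, add_assoc j, Nat.reduceAdd] at this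
    linear_combination (norm := abel) this
  have e1 : F 2 4 = 0 := by simpa [h5] using e 0 4
  have e2 : F 3 4 = 0 := by simpa [h5] using e 1 4
  have e3 := e 0 3
  have e4 := e 1 2
  simp only [zero_add, Nat.reduceAdd, h5 _ 5 le_rfl, e1, e2, h3, h4 2 3, smul_zero, add_zero] at e3 e4
  exact ⟨by linear_combination (norm := abel) 2 • e4 - e3, e1, e2⟩

theorem commutator_swap {V : Subgroup G} [hn : V.Normal] (hV : IsMulCommutative V) {a b v : G}
    (hab : Commute a b) (hv : v ∈ V) : ⁅a, ⁅b, v⁆⁆ = ⁅b, ⁅a, v⁆⁆ := by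
  have h := PGroup.isMulCommutative_iff.1 hV
  have h1 := h _ (hn.conj_mem _ (inv_mem hv) b) _ (hn.conj_mem _ (inv_mem hv) a)
  have h2 := h _ hv _ (hn.conj_mem _ (inv_mem hv) b)
  have h3 := h _ hv _ (hn.conj_mem _ (inv_mem hv) a)
  calc ⁅a, ⁅b, v⁆⁆ = a * b * v * b⁻¹ * a⁻¹ * (a * v⁻¹ * a⁻¹ * (v * (b * v⁻¹ * b⁻¹))) := by group
    _ = b * a * v * a⁻¹ * b⁻¹ * (b * v⁻¹ * b⁻¹ * (v * (a * v⁻¹ * a⁻¹))) := by
      rw [h2, h3, ← mul_assoc (a * v⁻¹ * a⁻¹), ← h1, mul_assoc (b * v⁻¹ * b⁻¹), hab.eq,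
        mul_assoc _ b⁻¹ a⁻¹, hab.inv_inv.symm.eq, ← mul_assoc _ a⁻¹ b⁻¹]
    _ = _ := by group

theorem exists_last {Z : Subgroup G} {f : ℕ → G} {m n : ℕ} (h : f m ∉ Z) (h' : f (m + n) ∈ Z) :
    ∃ k, f (m + k) ∉ Z ∧ f (m + 1 + k) ∈ Z := by
  induction n with
  | zero => exact absurd h' h
  | succ n ih =>
    by_cases e : f (m + n) ∈ Z
    exacts [ih e, ⟨n, e, by rwa [add_right_comm]⟩]

variable [Finite G]

theorem relIndex_le_of_maxIn (hA : A ∈ maxIn 0 P) (hM : IsMulCommutative M) (hMP : M ≤ P) :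
    (centralizer (A : Set G)).relIndex M ≤ (centralizer (M : Set G)).relIndex A := by
  have h0 := isElementaryAbelian_zero_iff.1 hA.2.1
  have h1 := hA.2.2 _ (sup_le (inf_le_right.trans hA.1) hMP) (isElementaryAbelian_zero_iff.2
    (PGroup.isMulCommutative_sup (PGroup.isMulCommutative_of_le inf_le_right h0) hM
      (inf_le_left : centralizer (M : Set G) ⊓ A ≤ _)))
  have h2 := Core.card_sup_mul_card_inf (H := centralizer (M : Set G) ⊓ A) (N := M)
    (inf_le_left.trans (centralizer_le_normalizer _))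
  have h3 := card_le_of_le (inf_le_inf_right M (inf_le_right.trans (le_centralizer A)) :
    centralizer (M : Set G) ⊓ A ⊓ M ≤ centralizer (A : Set G) ⊓ M)
  rw [← Core.card_inf_mul_relIndex (centralizer (M : Set G)) A] at h1
  have h4 := (Nat.mul_le_mul h1 h3).trans' h2.ge
  rw [← Core.card_inf_mul_relIndex (centralizer (A : Set G)) M, mul_assoc, mul_comm _ (Nat.card _)] at h4
  exact Nat.le_of_mul_le_mul_left (Nat.le_of_mul_le_mul_left h4 Nat.card_pos) Nat.card_pos

/-- Thompson's counting argument. -/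
theorem exists_commutator_mod (hA : A ∈ maxIn 0 P) {x : G} (hx : x ∈ P)
    (hM : IsMulCommutative (commElt A x)) {m : G} (hm : m ∈ commElt A x) :
    ∃ y ∈ A, ⁅y, x⁆⁻¹ * m ∈ centralizer (A : Set G) := by
  have h0 := PGroup.isMulCommutative_iff.1 (isElementaryAbelian_zero_iff.1 hA.2.1)
  have h1 := relIndex_le_of_maxIn hA hM (commElt_le_iff.2 fun a ha =>
    P.mul_mem (P.mul_mem (P.mul_mem (hA.1 ha) hx) (inv_mem (hA.1 ha))) (inv_mem hx))
  have h2 : ∀ u ∈ A, ∀ v ∈ A, ⁅u, x⁆⁻¹ * ⁅v, x⁆ ∈ centralizer (A : Set G) →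
      u⁻¹ * v ∈ centralizer (commElt A x : Set G) := fun u hu v hv h3 => by
    have hw := A.mul_mem (inv_mem hu) hv
    have h4 := PGroup.isMulCommutative_iff.1 hM
    have h5 : ⁅u⁻¹ * v, x⁆ = ⁅u, x⁆⁻¹ * ⁅v, x⁆ := by
      have e1 := h4 _ (inv_mem (commutator_mem_commElt hu x)) _ (commutator_mem_commElt hv x)
      have e2 := h3 _ hu
      calc _ = u⁻¹ * (⁅v, x⁆ * ⁅u, x⁆⁻¹) * u := by group
        _ = _ := by rw [← e1, mul_assoc, ← e2, inv_mul_cancel_left]
    rw [← h5] at h3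
    generalize u⁻¹ * v = w at hw h3
    rw [commElt, centralizer_closure]
    rintro _ ⟨y, hy, rfl⟩
    have e1 := h4 _ (commutator_mem_commElt hw x) _ (commutator_mem_commElt hy x)
    have e2 := h3 _ hy
    have e3 : w * ⁅y, x⁆ * w⁻¹ * ⁅w, x⁆ = ⁅y, x⁆ * ⁅w, x⁆ := by
      calc _ = ⁅w * y, x⁆ := by group
        _ = y * ⁅w, x⁆ * y⁻¹ * ⁅y, x⁆ := by rw [h0 w hw y hy]; group
        _ = _ := by rw [e2, mul_inv_cancel_right, e1]
    rw [← mul_inv_eq_iff_eq_mul.1 (mul_right_cancel e3)]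
  let f : A ⧸ (centralizer (commElt A x : Set G)).subgroupOf A →
      commElt A x ⧸ (centralizer (A : Set G)).subgroupOf (commElt A x) := fun q =>
    (⟨⁅q.out.1, x⁆, commutator_mem_commElt q.out.2 x⟩ : commElt A x)
  have h3 : Function.Injective f := fun q₁ q₂ hq => by
    rw [← QuotientGroup.out_eq' q₁, ← QuotientGroup.out_eq' q₂, QuotientGroup.eq]
    have := QuotientGroup.eq.mp hq
    exact h2 _ q₁.out.2 _ q₂.out.2 this
  obtain ⟨q, hq⟩ := (h3.bijective_of_nat_card_le h1).2 (⟨m, hm⟩ : commElt A x)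
  have := QuotientGroup.eq.mp hq
  exact ⟨_, q.out.2, this⟩

variable [hp : Fact p.Prime]

theorem exists_iterate_eq_one (hP : IsPGroup p P) {a x : G} (ha : a ∈ P) (hx : x ∈ P) (m : ℕ) :
    ∃ n, (⁅a, ·⁆)^[m + n] x = 1 := by
  have h1 : ∀ k, (⁅a, ·⁆)^[k] x ∈ iterCommutator P P k := fun k => by
    induction k with
    | zero => exact hx
    | succ k ih =>
      rw [Function.iterate_succ_apply', PGroup.iterCommutator_succ, commutator_comm]
      exact commutator_mem_commutator ha ih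
  exact ⟨Nat.card P, (PGroup.iterCommutator_eq_bot_of_card_le hP hP le_normalizer
    ((Nat.lt_pow_self hp.out.one_lt).le.trans' (Nat.le_add_left _ m))).le (h1 _)⟩

theorem ElemAbCoord.mem_centralizer_of_iterate {V : Subgroup G} [V.Normal] (hV : Core.IsMinNormal V)
    (hVp : IsPGroup p V) (hs : IsPSolvable p G)
    (hab : ∀ (q : ℕ) [Fact q.Prime], q ≠ p → ∀ T : Sylow q G, IsMulCommutative T) {g : G} {k : ℕ}
    (hk : k ≤ p - 1) (hg : ∀ v ∈ V, (⁅g, ·⁆)^[k] v = 1) : g ∈ centralizer (V : Set G) := by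
  obtain ⟨c⟩ := nonempty_elemAbCoord (hV.isElementaryAbelian_of_isPGroup hVp)
  let ρ := c.ρ.comp ((MonoidHom.id G).codRestrict _ fun x => le_normalizer_of_normal (mem_top x))
  have hρ : ∀ x, ρ x = 1 ↔ x ∈ centralizer (V : Set G) := fun x => c.rho_eq_one_iff _
  let ρ' := QuotientGroup.lift (centralizer (V : Set G)) ρ fun x hx => (hρ x).mpr hx
  have h1 : ∀ k u, c.e (Matrix.mulVec ((ρ g - 1) ^ k) u) = (⁅g, ·⁆)^[k] (c.e u) := fun k u => by
    induction k with
    | zero => simp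
    | succ k ih =>
      rw [pow_succ', ← Matrix.mulVec_mulVec, Function.iterate_succ_apply', ← ih]
      exact c.sub_one_mulVec _ _
  rw [← QuotientGroup.eq_one_iff]
  refine eq_one_of_sub_one_pow (p := p) (ρ := ρ') ((injective_iff_map_eq_one _).mpr fun x hx => ?_)
    (pow_eq_zero_of_le hk ?_) (Core.isPSolvable_quotient hs _)
    (pCore_quotient_centralizer_eq_bot_of_isMinNormal hV hVp)
    fun q _ hq => isMulCommutative_sylow_of_hasSection (hasSection_quotient _) (hab q hq)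
  · obtain ⟨x, rfl⟩ := QuotientGroup.mk_surjective x
    exact (QuotientGroup.eq_one_iff x).mpr ((hρ x).mp hx)
  · refine Matrix.ext_of_mulVec_single fun i => ?_
    rw [Matrix.zero_mulVec, ← c.eq_one_iff]
    exact (h1 k _).trans (hg _ (c.mem _))

omit [Finite G] hp in
theorem commutator_pow_eq {V : Subgroup G} [V.Normal] (hV : IsMulCommutative V) {a x : G} (hx : x ∈ V)
    (h : ⁅a, ⁅a, ⁅a, x⁆⁆⁆ = 1) (n : ℕ) : ⁅a ^ n, x⁆ = ⁅a, ⁅a, x⁆⁆ ^ n.choose 2 * ⁅a, x⁆ ^ n := by
  have h1 : ∀ v ∈ V, ⁅a, v⁆ ∈ V := fun v hv =>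
    commutator_le_right ⊤ V (commutator_mem_commutator (mem_top a) hv)
  have h2 := PGroup.isMulCommutative_iff.1 hV
  rw [commutatorElement_def, PGroup.pow_mul_eq_of_class_three (by
    simp only [Set.mem_insert_iff, Set.mem_singleton_iff]
    rintro _ (rfl | rfl | rfl)
    exacts [h2 _ hx _ (h1 _ (h1 _ hx)), commutatorElement_eq_one_iff_commute.1 h,
      h2 _ (h1 _ hx) _ (h1 _ (h1 _ hx))])]
  group

theorem quadratic_of_maxIn (hp3 : 3 ≤ p) (hP : IsPGroup p P) (hA : A ∈ maxIn 0 P) {W : Subgroup G}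
    [hn : W.Normal] (hW : IsElementaryAbelian p W) (hWP : W ≤ P) {a : G} (ha : a ∈ A)
    (h : A ≤ centralizer (W : Set G) ⊔ zpowers a) {x : G} (hx : x ∈ W) : ⁅a, ⁅a, x⁆⁆ = 1 := by
  by_contra h1
  have h0 := isElementaryAbelian_zero_iff.1 hA.2.1
  have h2 : ∀ v ∈ W, ⁅a, v⁆ ∈ W := fun v hv =>
    commutator_le_right ⊤ W (commutator_mem_commutator (mem_top a) hv)
  obtain ⟨n, hn'⟩ := exists_iterate_eq_one hP (hA.1 ha) (hWP hx) 2
  obtain ⟨k, h3, h4⟩ := exists_last (Z := ⊥) (f := fun k => (⁅a, ·⁆)^[k] x) (m := 2) h1 hn'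
  have h5 : (⁅a, ·⁆)^[k] x ∈ W := Function.Iterate.rec (· ∈ W) hx h2 k
  simp only [Function.iterate_add_apply, mem_bot] at h3 h4
  generalize (⁅a, ·⁆)^[k] x = y at h3 h4 h5
  let M := W ⊓ centralizer (zpowers (a ^ p) : Set G)
  have h6 : y ∈ M := ⟨h5, le_centralizer_iff.1 (zpowers_le.2 (mem_centralizer_iff.2 ?_)) (mem_zpowers y)⟩
  swap
  · obtain ⟨j, hj⟩ := PGroup.prime_dvd_choose_two hp.out (by omega)
    rintro _ ⟨i, rfl⟩
    refine ((commutatorElement_eq_one_iff_commute.1 ?_).zpow_right i).symm.eq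
    rw [commutator_pow_eq hW.1 h5 h4, hj, pow_mul, hW.2 _ (h2 _ (h2 _ h5)), hW.2 _ (h2 _ h5)]
    simp
  have h7 : A ≤ normalizer (M : Set G) := Coprime.le_normalizer_inf le_normalizer_of_normal
    (Coprime.le_normalizer_centralizer (((le_centralizer A).trans (centralizer_le
      (zpowers_le.2 (pow_mem ha p)))).trans (centralizer_le_normalizer _)))
  have hM := PGroup.isMulCommutative_of_le (inf_le_left : M ≤ W) hW.1
  have h8 : (centralizer (M : Set G)).relIndex A ≤ p := by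
    have e1 : centralizer (M : Set G) ⊓ A ⊔ zpowers a = A := le_antisymm
      (sup_le inf_le_right (zpowers_le.2 ha)) fun z hz => by
        obtain ⟨c, hc, i, rfl⟩ := (PGroup.mem_sup_zpowers_iff (le_normalizer_of_normal (mem_top a))).1 (h hz)
        exact mul_mem_sup ⟨centralizer_le inf_le_left hc, (A.mul_mem_cancel_right (zpow_mem ha i)).1 hz⟩
          (zpow_mem (mem_zpowers a) i)
    rw [← inf_relIndex_right]
    by_cases e2 : a ∈ centralizer (M : Set G) ⊓ A
    · rw [relIndex_eq_one.2 (e1.ge.trans (sup_le le_rfl (zpowers_le.2 e2)))]; omega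
    · conv_lhs => arg 2; rw [← e1]
      exact (PGroup.relIndex_sup_zpowers (centralizer_le_normalizer _ (centralizer_le inf_le_right
        (le_centralizer A ha))) e2 ⟨le_centralizer_iff.1 inf_le_right (mem_zpowers _), pow_mem ha p⟩).le
  have h9 := PGroup.relIndex_commStab_dvd_of_le (S := centralizer (A : Set G) ⊓ M) inf_le_right
    (by rw [commutator_eq_bot_iff_le_centralizer.2 (le_centralizer M)]; exact bot_le)
    (fun z hz => by rw [hW.2 z hz.1]; exact one_mem _)
    (Coprime.le_normalizer_inf (Coprime.le_normalizer_centralizer le_normalizer) h7) h7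
    (by rw [inf_relIndex_right]; exact (relIndex_le_of_maxIn hA hM (inf_le_left.trans hWP)).trans h8)
  have h10 := relIndex_eq_one.1 (Nat.eq_one_of_dvd_coprimes (Core.coprime_card_of_isPGroup
    (hP.to_le hA.1) ((Nat.coprime_self_sub_left hp.out.one_le).2 (Nat.coprime_one_left p)))
    (relIndex_dvd_card _ _) h9)
  exact h3 (commutatorElement_eq_one_iff_mul_comm.2 (((h10 ha).2 y h6).1 a ha))

theorem exists_special_section {N B : Subgroup G} [hN : N.Normal] (hNp : IsPGroup p N)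
    (h : ¬ resClosure p B ≤ centralizer (N : Set G)) :
    ∃ U Z : Subgroup G, U ≤ N ∧ IsChiefFactor U Z ∧ ¬ ⁅U, B⁆ ≤ Z ∧ ⁅U, Z⁆ = ⊥ ∧ ⁅U, N⁆ ≤ Z := by
  obtain ⟨U, hUN, ⟨hUn, hU⟩, hmin⟩ := Core.exists_minimal_le
    (P := fun X : Subgroup G => X.Normal ∧ ¬ resClosure p B ≤ centralizer (X : Set G)) (H := N) ⟨hN, h⟩
  have h1 : ∀ Y : Subgroup G, Y.Normal → Y < U → resClosure p B ≤ centralizer (Y : Set G) :=
    fun Y hY hYU => by_contra fun hne => hYU.ne (hmin Y ⟨hY, hne⟩ hYU.le)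
  have h2 : ∀ Y : Subgroup G, Y.Normal → Y < U → ¬ ⁅U, resClosure p B⁆ ≤ Y := fun Y hY hYU h2 =>
    hU (resClosure_le_iff.mpr fun g hg hc => Coprime.le_centralizer_of_commutator_le
      (A := zpowers g) (N := Y) ((commutator_mono le_rfl (zpowers_le_of_mem
        (resClosure_le_iff.mp le_rfl g hg hc))).trans h2)
      (zpowers_le_of_mem (resClosure_le_iff.mp (h1 Y hY hYU) g hg hc))
      (Coprime.coprime_card_of_isPGroup (hNp.to_le (hYU.le.trans hUN)) (by rwa [Nat.card_zpowers]))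
      (mem_zpowers g))
  have h3 : ⁅U, resClosure p B⁆ = U := by_contra fun e =>
    h2 _ inferInstance (lt_of_le_of_ne (commutator_le_left _ _) e) le_rfl
  have h4 : U ⊓ centralizer (resClosure p B : Set G) < U :=
    inf_lt_left.2 fun e => hU (le_centralizer_iff.1 e)
  have h5 : ∀ Y : Subgroup G, Y.Normal → Y < U → Y ≤ U ⊓ centralizer (resClosure p B : Set G) :=
    fun Y hY hYU => le_inf hYU.le (le_centralizer_iff.1 (h1 Y hY hYU))
  refine ⟨U, U ⊓ centralizer (resClosure p B : Set G), hUN, ⟨h4, hUn, inferInstance,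
    fun Y hY h6 h7 => h7.lt_or_eq.imp_left fun e => le_antisymm (h5 Y hY e) h6⟩,
    fun e => h2 _ inferInstance h4 ((commutator_mono le_rfl (map_subtype_le _)).trans
      (commutator_normalClosure_le e)), ?_, h5 _ inferInstance (PGroup.commutator_lt
        (hNp.to_le hUN) hNp le_normalizer_of_normal fun e => hU ?_)⟩
  · conv_lhs => arg 1; rw [← h3]
    refine commutator_commutator_eq_bot_of_rotate ?_ (commutator_eq_bot_iff_le_centralizer.2
      ((commutator_le_left _ _).trans inf_le_right))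
    rw [commutator_comm (resClosure p B), commutator_eq_bot_iff_le_centralizer.2 inf_le_right,
      commutator_bot_left]
  · rw [e, le_centralizer_iff]; exact bot_le

omit [Finite G] in
theorem iterate_three_eq_one (hp3 : 3 ≤ p) {V : Subgroup G} [V.Normal] (hV : IsElementaryAbelian p V)
    {a u : G} (hu : u ∈ V) (h4 : ⁅a, ⁅a, ⁅a, ⁅a, u⁆⁆⁆⁆ = 1) {i : ℕ}
    (h : Commute a (⁅a ^ i, u⁆⁻¹ * ⁅a, ⁅a, u⁆⁆)) : ⁅a, ⁅a, ⁅a, u⁆⁆⁆ = 1 := by
  have h1 : ∀ b, ∀ v ∈ V, ⁅b, v⁆ ∈ V := fun b v hv =>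
    commutator_le_right ⊤ V (commutator_mem_commutator (mem_top b) hv)
  have h2 := PGroup.isMulCommutative_iff.1 hV.1
  have h3 : ⁅a, ⁅a, ⁅a, u⁆⁆⁆ = ⁅a ^ i, ⁅a, u⁆⁆ := by
    conv_lhs => rw [← mul_inv_cancel_left ⁅a ^ i, u⁆ ⁅a, ⁅a, u⁆⁆]
    rw [commutatorElement_mul_right_eq_mul_conj, commutatorElement_eq_one_iff_commute.2 h,
      commutator_swap hV.1 ((Commute.refl a).pow_right i) hu]
    group
  have hw := h1 a u hu
  generalize ⁅a, u⁆ = w at h3 h4 hw ⊢
  by_cases hi : p ∣ i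
  · obtain ⟨j, rfl⟩ := hi
    obtain ⟨k, hk⟩ := PGroup.prime_dvd_choose_two hp.out (by omega)
    rw [h3, pow_mul]
    refine commutatorElement_eq_one_iff_commute.2 ((commutatorElement_eq_one_iff_commute.1 ?_).pow_left j)
    rw [commutator_pow_eq hV.1 hw h4, hk, pow_mul, hV.2 _ (h1 _ _ (h1 _ _ hw)), hV.2 _ (h1 _ _ hw)]
    simp
  rw [commutator_pow_eq hV.1 hw h4, ← inv_mul_eq_iff_eq_mul] at h3
  have h5 := commutatorElement_eq_one_iff_commute.1 h4
  have h6 := commutatorElement_eq_one_iff_commute.2 (h3 ▸ (h5.pow_right _).inv_right.mul_right h5)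
  rw [PGroup.commutator_pow_right_of_commute (h2 _ (h1 _ _ hw) _ (h1 _ _ (h1 _ _ hw)))] at h6
  exact orderOf_eq_one_iff.1 (Nat.eq_one_of_dvd_coprimes ((hp.out.coprime_iff_not_dvd).2 hi)
    (orderOf_dvd_of_pow_eq_one (hV.2 _ (h1 _ _ (h1 _ _ hw)))) (orderOf_dvd_of_pow_eq_one h6))

omit [Finite G] hp in
theorem commute_of_special {U Z : Subgroup G} [U.Normal] [hZ : Z.Normal] (hZU : ⁅U, U⁆ ≤ Z)
    (hUZ : ⁅U, Z⁆ = ⊥) {a : G} (ha : ∀ w ∈ ⁅U, U⁆, ⁅a, ⁅a, w⁆⁆ = 1) {x : ℕ → G} (hx : ∀ i, x i ∈ U)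
    (hs : ∀ i, x (i + 1) = ⁅a, x i⁆) (h5 : x 5 ∈ Z) :
    Commute (x 2) (x 3) ∧ Commute (x 2) (x 4) ∧ Commute (x 3) (x 4) := by
  have h1 : ∀ u ∈ U, ∀ z ∈ Z, Commute u z := fun u hu z hz =>
    commutatorElement_eq_one_iff_commute.1 (hUZ.le (commutator_mem_commutator hu hz))
  have h2 : ∀ u ∈ U, ∀ v ∈ U, ∀ w ∈ U, Commute u ⁅v, w⁆ := fun u hu v hv w hw =>
    h1 u hu _ (hZU (commutator_mem_commutator hv hw))
  have hW : IsMulCommutative (⁅U, U⁆ : Subgroup G) := PGroup.isMulCommutative_iff.2 fun u hu v hv =>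
    h1 u (commutator_le_left _ _ hu) v (hZU hv)
  have h3 : ∀ j, 5 ≤ j → x j ∈ Z := fun j hj => by
    induction hj with
    | refl => exact h5
    | step _ ih => exact hs _ ▸ commutator_le_right ⊤ Z (commutator_mem_commutator (mem_top a) ih)
  have h4 : ∀ i, a * x i * a⁻¹ = x (i + 1) * x i := fun i => by rw [hs]; group
  open scoped IsMulCommutative in
  have := alt_vanish (M := Additive (⁅U, U⁆ : Subgroup G))
    (MonoidHom.toAdditive (MulAut.conjNormal a).toMonoidHom)
    (fun i j => Additive.ofMul ⟨⁅x i, x j⁆, commutator_mem_commutator (hx i) (hx j)⟩)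
    (fun i j => ?_) (fun i j => ?_) (fun i => ?_) (fun i j => ?_) (fun i j hj => ?_)
  · simpa only [ofMul_eq_zero, Subtype.ext_iff, coe_one, commutatorElement_eq_one_iff_commute] using this
  · refine Additive.toMul.injective (Subtype.ext ?_)
    change a * ⁅x i, x j⁆ * a⁻¹ = ⁅x (i + 1), x (j + 1)⁆ * ⁅x (i + 1), x j⁆ * ⁅x i, x (j + 1)⁆ * ⁅x i, x j⁆
    rw [conjugate_commutatorElement, h4, h4, PGroup.commutator_mul_left_of_commute
      (h2 _ (hx _) _ (hx _) _ (mul_mem (hx _) (hx _))), (h2 _ (commutator_le_left _ _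
        (commutator_mem_commutator (hx _) (mul_mem (hx _) (hx _)))) _ (hx _) _ (mul_mem (hx _) (hx _))).eq,
      PGroup.commutator_mul_right_of_commute (h2 _ (hx _) _ (hx _) _ (hx _)),
      PGroup.commutator_mul_right_of_commute (h2 _ (hx _) _ (hx _) _ (hx _)), mul_assoc, mul_assoc,
      mul_assoc]
  · refine Additive.toMul.injective (Subtype.ext ?_)
    have hw := commutator_mem_commutator (hx i) (hx j)
    change a * (a * ⁅x i, x j⁆ * a⁻¹) * a⁻¹ * ⁅x i, x j⁆ = a * ⁅x i, x j⁆ * a⁻¹ * (a * ⁅x i, x j⁆ * a⁻¹)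
    generalize ⁅x i, x j⁆ = w at hw
    have e1 := PGroup.isMulCommutative_iff.1 hW _ hw _ (Normal.conj_mem inferInstance _ hw a)
    calc _ = ⁅a, ⁅a, w⁆⁆ * (a * w * a⁻¹) * (w⁻¹ * ((a * w * a⁻¹) * w)) := by group
      _ = _ := by rw [ha w hw, one_mul, ← e1, inv_mul_cancel_left]
  · exact Additive.toMul.injective (Subtype.ext (commutatorElement_self _))
  · exact Additive.toMul.injective (Subtype.ext (commutatorElement_inv _ _).symm)
  · exact Additive.toMul.injective (Subtype.ext (commutatorElement_eq_one_iff_commute.2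
      (h1 _ (hx i) _ (h3 j hj))))

theorem mem_pCore_of_maxIn (hp5 : 5 ≤ p) (hs : IsPSolvable p G)
    (hab : ∀ (q : ℕ) [Fact q.Prime], q ≠ p → ∀ T : Sylow q G, IsMulCommutative T)
    (hP : IsPGroup p P) (hA : A ∈ maxIn 0 P) {N : Subgroup G} [N.Normal] (hNP : N ≤ P)
    (hC : centralizer (N : Set G) ≤ N) {a : G} (ha : a ∈ A) (h : A ≤ N ⊔ zpowers a) :
    a ∈ pCore p G := by
  by_contra h0
  have hN := hP.to_le hNP
  have hNR : N ≤ pCore p G := Core.le_pCore inferInstance hN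
  obtain ⟨U, Z, hUN, hUZ, h1, h2, h3⟩ := exists_special_section hN (not_resClosure_le_centralizer
    (B := zpowers a) hNR (inf_le_right.trans hC) ((centralizer_le hNR).trans (hC.trans hNR))
    fun e => h0 (e (mem_zpowers a)))
  have := hUZ.2.1
  have := hUZ.2.2.1
  have hZU : ⁅U, U⁆ ≤ Z := (commutator_mono le_rfl hUN).trans h3
  have hV := Core.isMinNormal_map_mk'_of_isChiefFactor hUZ
  have := hV.normal
  have hVp : IsPGroup p (U.map (QuotientGroup.mk' Z)) := (hN.to_le hUN).map _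
  have hVe := hV.isElementaryAbelian_of_isPGroup hVp
  have h4 : ∀ u ∈ U, ∀ z ∈ Z, Commute u z := fun u hu z hz =>
    commutatorElement_eq_one_iff_commute.1 (h2.le (commutator_mem_commutator hu hz))
  have hW : IsElementaryAbelian p (⁅U, U⁆ : Subgroup G) := by
    have e := PGroup.isMulCommutative_iff.2 fun u hu v hv =>
      (h4 u (commutator_le_left _ _ hu) v (hZU hv)).eq
    refine ⟨e, fun w hw => closure_induction (fun w hw => ?_) (one_pow p) (fun u v hu hv e1 e2 => ?_)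
      (fun u _ e1 => by rw [inv_pow, e1, inv_one]) hw⟩
    · obtain ⟨u, hu, v, hv, rfl⟩ := hw
      rw [← PGroup.commutator_pow_left_of_commute (h4 _ hu _ (hZU (commutator_mem_commutator hu hv))),
        commutatorElement_eq_one_iff_commute]
      exact (h4 _ hv _ ((QuotientGroup.eq_one_iff _).1 (hVe.2 _ (mem_map_of_mem _ hu)))).symm
    · rw [Commute.mul_pow (PGroup.isMulCommutative_iff.1 e _ hu _ hv), e1, e2, mul_one]
  have h5 : N ≤ centralizer ((⁅U, U⁆ : Subgroup G) : Set G) := by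
    have e : ⁅⁅U, N⁆, U⁆ = ⊥ := eq_bot_iff.2 ((commutator_mono h3 le_rfl).trans_eq
      ((commutator_comm _ _).trans h2))
    rw [le_centralizer_iff, ← commutator_eq_bot_iff_le_centralizer]
    exact commutator_commutator_eq_bot_of_rotate e (by rwa [commutator_comm N])
  have h6 := fun w hw => quadratic_of_maxIn (by omega) hP hA hW ((commutator_le_left _ _).trans
    (hUN.trans hNP)) ha (h.trans (sup_le_sup_right h5 _)) (x := w) hw
  have hπ : ∀ k (x : G), (⁅(a : G ⧸ Z), ·⁆)^[k] (x : G ⧸ Z) = ((⁅a, ·⁆)^[k] x : G) := fun k x =>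
    ((Function.Semiconj.iterate_right (f := QuotientGroup.mk' Z) (ga := (⁅a, ·⁆))
      (gb := (⁅(a : G ⧸ Z), ·⁆)) (fun y => map_commutatorElement _ _ _) k) x).symm
  obtain ⟨y, hy, h7⟩ : ∃ y ∈ U, (⁅a, ·⁆)^[4] y ∉ Z := by
    by_contra! e
    have := ElemAbCoord.mem_centralizer_of_iterate hV hVp (Core.isPSolvable_quotient hs _)
      (fun q _ hq => isMulCommutative_sylow_of_hasSection (hasSection_quotient _) (hab q hq))
      (g := (a : G ⧸ Z)) (k := 4) (by omega) (by
        rintro _ ⟨y, hy, rfl⟩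
        exact (hπ 4 y).trans ((QuotientGroup.eq_one_iff _).2 (e y hy)))
    refine h1 ((Core.map_mk'_eq_bot_iff Z _).1 ?_)
    rw [map_commutator, MonoidHom.map_zpowers, commutator_eq_bot_iff_le_centralizer, le_centralizer_iff]
    exact zpowers_le.2 this
  obtain ⟨n, hn⟩ := exists_iterate_eq_one hP (hA.1 ha) (hNP (hUN hy)) 4
  obtain ⟨k, h8, h9⟩ := exists_last (Z := Z) (f := fun k => (⁅a, ·⁆)^[k] y) h7 (hn ▸ one_mem Z)
  let x : ℕ → G := fun i => (⁅a, ·⁆)^[i + k] y
  have hx : ∀ i, x i ∈ U := fun i => Function.Iterate.rec (· ∈ U) hy (fun v hv =>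
    commutator_le_right ⊤ U (commutator_mem_commutator (mem_top a) hv)) _
  have hxs : ∀ i, x (i + 1) = ⁅a, x i⁆ := fun i => by
    simp only [x, add_right_comm i 1 k, Function.iterate_succ_apply']
  change x 4 ∉ Z at h8
  change x 5 ∈ Z at h9
  clear_value x
  obtain ⟨e1, e2, e3⟩ := commute_of_special hZU h2 h6 hx hxs h9
  have hE : closure {x 2, x 3, x 4} ≤ U := by
    rw [closure_le]; rintro _ (rfl | rfl | rfl) <;> exact hx _
  have hE' : IsMulCommutative ↥(Z ⊔ closure {x 2, x 3, x 4}) := PGroup.isMulCommutative_sup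
    (PGroup.isMulCommutative_iff.2 fun u hu v hv => (h4 u (hUZ.1.le hu) v hv).eq)
    (isMulCommutative_closure (by
      rintro _ (rfl | rfl | rfl) _ (rfl | rfl | rfl)
      exacts [rfl, e1, e2, e1.symm, rfl, e3, e2.symm, e3.symm, rfl]))
    fun z hz u hu => (h4 u (hE hu) z hz).eq
  have h10 : N ⊔ zpowers a ≤ PGroup.commStab (Z ⊔ closure {x 2, x 3, x 4}) {x 1} := by
    have e4 : ∀ i, 2 ≤ i → i ≤ 5 → x i ∈ Z ⊔ closure {x 2, x 3, x 4} := fun i h h' => by
      interval_cases i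
      exacts [mem_sup_right (subset_closure (by simp)), mem_sup_right (subset_closure (by simp)),
        mem_sup_right (subset_closure (by simp)), mem_sup_left h9]
    refine sup_le (fun m hm => ⟨?_, ?_⟩) (zpowers_le.2 ⟨?_, ?_⟩)
    · exact le_normalizer_iff_commutator_le_left.2 ((commutator_mono (sup_le hUZ.1.le hE) le_rfl).trans
        (h3.trans le_sup_left)) hm
    · rintro _ rfl
      exact mem_sup_left (h3 (commutator_comm N U ▸ commutator_mem_commutator hm (hx 1)))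
    · refine mem_normalizer_fintype fun n hn => (?_ : Z ⊔ closure {x 2, x 3, x 4} ≤ comap
        (MulAut.conj a).toMonoidHom (Z ⊔ closure {x 2, x 3, x 4})) hn
      have e5 : ∀ i, 2 ≤ i → i ≤ 4 → a * x i * a⁻¹ ∈ Z ⊔ closure {x 2, x 3, x 4} := fun i h h' => by
        rw [show a * x i * a⁻¹ = x (i + 1) * x i by rw [hxs]; group]
        exact mul_mem (e4 _ (by omega) (by omega)) (e4 _ h (by omega))
      refine sup_le (fun z hz => mem_sup_left (Normal.conj_mem inferInstance z hz a)) ((closure_le _).2 ?_)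
      rintro _ (rfl | rfl | rfl) <;> exact e5 _ (by norm_num) (by norm_num)
    · rintro _ rfl
      exact hxs 1 ▸ e4 2 le_rfl (by norm_num)
  obtain ⟨b, hb, h11⟩ := exists_commutator_mod hA (hNP (hUN (hx 1))) (PGroup.isMulCommutative_of_le
    (commElt_le_iff.2 fun b hb => (h10 (h hb)).2 _ rfl) hE') (m := x 3) (by
      have e : x 3 = ⁅a * a, x 1⁆ * ⁅a, x 1⁆⁻¹ * ⁅a, x 1⁆⁻¹ := by rw [hxs 2, hxs 1]; group
      have e' := inv_mem (commutator_mem_commElt ha (x 1))
      exact e ▸ mul_mem (mul_mem (commutator_mem_commElt (A.mul_mem ha ha) _) e') e')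
  obtain ⟨m, hm, i, rfl⟩ := (PGroup.mem_sup_zpowers_iff (le_normalizer_of_normal (mem_top a))).1 (h hb)
  obtain ⟨i, hi⟩ := mem_powers_iff_mem_zpowers.2 (zpow_mem_zpowers a i)
  have h12 := iterate_three_eq_one (by omega) hVe (a := QuotientGroup.mk' Z a)
    (mem_map_of_mem (QuotientGroup.mk' Z) (hx 1)) (i := i) ?_ ?_
  · simp only [← map_commutatorElement, ← hxs] at h12
    exact h8 ((QuotientGroup.eq_one_iff _).1 h12)
  · simp only [← map_commutatorElement, ← hxs]
    exact (QuotientGroup.eq_one_iff _).2 h9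
  · have e : ∀ u ∈ U, Commute (QuotientGroup.mk' Z m) (QuotientGroup.mk' Z u) := fun u hu => by
      rw [← commutatorElement_eq_one_iff_commute, ← map_commutatorElement]
      exact (QuotientGroup.eq_one_iff _).2 (h3 (commutator_comm N U ▸ commutator_mem_commutator hm hu))
    have e' := Commute.map (show Commute a _ from h11 a ha) (QuotientGroup.mk' Z)
    rw [← hi, map_mul, map_inv, map_commutatorElement, map_mul, PGroup.commutator_mul_left_of_commute (by
      rw [← map_commutatorElement]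
      exact e _ (commutator_le_right ⊤ U (commutator_mem_commutator (mem_top _) (hx 1)))),
      commutatorElement_eq_one_iff_commute.2 (e _ (hx 1)), mul_one, map_pow, hxs 2, hxs 1] at e'
    simpa only [map_commutatorElement] using e'

theorem le_pCore_of_maxIn (hp5 : 5 ≤ p) (hs : IsPSolvable p G)
    (hab : ∀ (q : ℕ) [Fact q.Prime], q ≠ p → ∀ T : Sylow q G, IsMulCommutative T)
    (hC : centralizer (pCore p G : Set G) ≤ pCore p G) (hP : IsPGroup p P) (hRP : pCore p G ≤ P)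
    (hA : A ∈ maxIn 0 P) : A ≤ pCore p G := by
  let π := QuotientGroup.mk' (pCore p G)
  have h0 := isElementaryAbelian_zero_iff.1 hA.2.1
  have hAp : IsPGroup p (A.map π) := (hP.to_le hA.1).map π
  have hF := Core.pPrimeCore_coprime p (G ⧸ pCore p G)
  have h1 : pPrimeCore p (G ⧸ pCore p G) ≤ centralizer (A.map π : Set (G ⧸ pCore p G)) := by
    refine Coprime.le_of_forall_cocyclic (A := A.map π) inferInstance le_normalizer_of_normal
      (Core.coprime_card_of_isPGroup hAp hF) ?_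
    rintro B hB ⟨_, ⟨a, ha, rfl⟩, hBa⟩
    set D := pPrimeCore p (G ⧸ pCore p G) ⊓ centralizer (B : Set (G ⧸ pCore p G))
    let H := (D ⊔ A.map π).comap π
    have hAH : A ≤ H := (le_comap_map π A).trans (comap_mono le_sup_right)
    have hBA : A.map π ≤ normalizer (B : Set (G ⧸ pCore p G)) :=
      ((le_centralizer _).trans (centralizer_le hB)).trans (centralizer_le_normalizer _)
    have hRB : pCore p G ≤ B.comap π := (QuotientGroup.ker_mk' _).ge.trans (ker_le_comap π B)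
    have hBH : B.comap π ≤ H := comap_mono (hB.trans le_sup_right)
    have : ((B.comap π).subgroupOf H).Normal := normal_subgroupOf_of_le_normalizer
      ((comap_mono (sup_le (inf_le_right.trans (centralizer_le_normalizer _)) hBA)).trans
        (le_normalizer_comap π))
    have h2 := mem_pCore_of_maxIn (G := H) (P := P.subgroupOf H) (A := A.subgroupOf H) hp5
      (Core.isPSolvable_subgroup hs H) (fun q _ hq => isMulCommutative_sylow_of_hasSection
        (hasSection_subgroup _) (hab q hq)) hP.comap_subtype (mem_maxIn_of_map_mem H.subtype_injective (by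
          rw [map_subgroupOf_eq_of_le hAH, subgroupOf_map_subtype]
          exact mem_maxIn_of_le hA (le_inf hA.1 hAH) inf_le_left))
      (N := (B.comap π).subgroupOf H) (comap_mono ((comap_mono hB).trans (by
        rw [QuotientGroup.comap_map_mk']; exact sup_le hRP hA.1)))
      (by rw [Core.centralizer_subgroupOf_eq hBH]
          exact comap_mono ((centralizer_le hRB).trans (hC.trans hRB)))
      (a := ⟨a, hAH ha⟩) ha fun y hy => by
        obtain ⟨b, hb, k, e⟩ := (PGroup.mem_sup_zpowers_iff (hBA (mem_map_of_mem π ha))).1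
          (hBa.ge (mem_map_of_mem π hy))
        rw [← inv_mul_cancel_right y (⟨a, hAH ha⟩ ^ k)]
        refine mul_mem_sup ?_ (zpow_mem_zpowers _ k)
        change π (y * (a ^ k)⁻¹) ∈ B
        rwa [map_mul, map_inv, map_zpow, mul_inv_eq_iff_eq_mul.2 (show π y = _ from e)]
    rw [← hBa, le_centralizer_iff]
    refine sup_le (le_centralizer_iff.1 inf_le_right) (zpowers_le.2 fun d hd => ?_)
    obtain ⟨d, rfl⟩ := QuotientGroup.mk'_surjective _ d
    refine commutatorElement_eq_one_iff_mul_comm.1 ((Core.inf_eq_bot_of_isPGroup_of_coprime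
      ((Core.pCore_isPGroup p H).map (π.comp H.subtype)) hF).le ⟨⟨⁅⟨d, mem_sup_left hd⟩, ⟨a, hAH ha⟩⁆,
        commutator_le_right ⊤ _ (commutator_mem_commutator (mem_top _) h2), by simp [π]⟩, ?_⟩)
    exact commutator_le_left _ ⊤ (commutator_mem_commutator hd.1 (mem_top _))
  refine (Core.map_mk'_eq_bot_iff _ _).1 (eq_bot_iff.2 ((le_inf le_rfl ((le_centralizer_iff.1 h1).trans
    (Core.centralizer_pPrimeCore_le_of_isPSolvable (Core.isPSolvable_quotient hs _)
      (Core.pCore_quotient_pCore p G)))).trans (Core.inf_eq_bot_of_isPGroup_of_coprime hAp hF).le))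

theorem normal_thompsonSubgroupOf_zero (hp5 : 5 ≤ p) (hs : IsPSolvable p G)
    (hab : ∀ (q : ℕ) [Fact q.Prime], q ≠ p → ∀ T : Sylow q G, IsMulCommutative T)
    (hC : centralizer (pCore p G : Set G) ≤ pCore p G) (S : Sylow p G) :
    (thompsonSubgroupOf 0 (S : Subgroup G)).Normal := by
  have h := (Core.pCore_isPGroup p G).le_sylow_of_normal S
  rw [← thompsonSubgroupOf_eq_of_le (thompsonSubgroupOf_le_iff.2 fun A hA =>
    le_pCore_of_maxIn hp5 hs hab hC S.2 h hA) h]
  infer_instance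

end Cfsg.Lib.PLocal
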