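import Cfsg.Agent.Lib.PLocal.Replacement
import Cfsg.Agent.Lib.PLocal.ChiefComm

/-! Abelian subgroups of largest order acting on an abelian normal subgroup. -/

set_option autoImplicit false

namespace Cfsg.Lib.PLocal.JTr

open Subgroup Cfsg.Lib.Transfer
open scoped commutatorElement

variable {G : Type*} [Group G]

theorem commutator_closure_le {s : Set G} {L N : Subgroup G}
    (h1 : ∀ x ∈ s, x ∈ normalizer (N : Set G)) (h2 : ∀ x ∈ s, ∀ y ∈ L, ⁅x, y⁆ ∈ N) :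
    ⁅closure s, L⁆ ≤ N := by
  rw [commutator_le]
  intro x hx
  suffices x ∈ normalizer (N : Set G) ∧ ∀ y ∈ L, ⁅x, y⁆ ∈ N from this.2
  induction hx using closure_induction with
  | mem x hx => exact ⟨h1 x hx, h2 x hx⟩
  | one => exact ⟨one_mem _, fun y _ => by simp⟩
  | mul x x' _ _ ih ih' =>
    refine ⟨mul_mem ih.1 ih'.1, fun y hy => ?_⟩
    have : ⁅x * x', y⁆ = x * ⁅x', y⁆ * x⁻¹ * ⁅x, y⁆ := by simp only [commutatorElement_def]; group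
    rw [this]
    exact mul_mem ((mem_normalizer_iff.mp ih.1 _).mp (ih'.2 y hy)) (ih.2 y hy)
  | inv x _ ih =>
    refine ⟨inv_mem ih.1, fun y hy => ?_⟩
    have : ⁅x⁻¹, y⁆ = x⁻¹ * ⁅x, y⁆⁻¹ * x⁻¹⁻¹ := by simp only [commutatorElement_def]; group
    rw [this]
    exact (mem_normalizer_iff.mp (inv_mem ih.1) _).mp (inv_mem (ih.2 y hy))

theorem comm_comm_le {X A Y : Subgroup G} (hn : ⁅X, A⁆ ≤ normalizer (Y : Set G))
    (h : ∀ x ∈ X, ∀ a ∈ A, ∀ a' ∈ A, ⁅⁅x, a⁆, a'⁆ ∈ Y) : ⁅⁅X, A⁆, A⁆ ≤ Y := by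
  rw [commutator_def X A] at hn ⊢
  refine commutator_closure_le (fun x hx => hn (subset_closure hx)) ?_
  rintro _ ⟨x, hx, a, ha, rfl⟩ a' ha'
  exact h x hx a ha a' ha'

theorem phi_mul {H : Subgroup G} {x y d : G} (hx : x ∈ H)
    (hy : ⁅y, d⁆ ∈ centralizer (H : Set G)) : ⁅x * y, d⁆ = ⁅y, d⁆ * ⁅x, d⁆ := by
  have : ⁅x * y, d⁆ = x * ⁅y, d⁆ * x⁻¹ * ⁅x, d⁆ := by simp only [commutatorElement_def]; group
  rw [this, hy x hx, mul_inv_cancel_right]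

theorem phi_inv {H : Subgroup G} {x d : G} (hx : x ∈ H)
    (hy : ⁅x, d⁆ ∈ centralizer (H : Set G)) : ⁅x⁻¹, d⁆ = ⁅x, d⁆⁻¹ := by
  have : ⁅x⁻¹, d⁆ = x⁻¹ * ⁅x, d⁆⁻¹ * x := by simp only [commutatorElement_def]; group
  rw [this, inv_mem hy x⁻¹ (inv_mem hx), inv_mul_cancel_right]

theorem phi {H : Subgroup G} {x a d : G} (hx : x ∈ H) (ha : a ∈ normalizer (H : Set G))
    (hd : ∀ y ∈ H, ⁅y, d⁆ ∈ H ⊓ centralizer (H : Set G)) (h : Commute a d) :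
    ⁅⁅x, a⁆, d⁆ = ⁅⁅x, d⁆, a⁆ := by
  have h1 : a * x⁻¹ * a⁻¹ ∈ H := (mem_normalizer_iff.mp ha _).mp (inv_mem hx)
  have h2 : ⁅a * x⁻¹ * a⁻¹, d⁆ = a * ⁅x, d⁆⁻¹ * a⁻¹ := by
    rw [← phi_inv hx (hd x hx).2]
    calc _ = ⁅a * x⁻¹ * a⁻¹, a * d * a⁻¹⁆ := by rw [h.eq, mul_inv_cancel_right]
      _ = _ := by simp only [commutatorElement_def]; group
  have h3 : ⁅x, a⁆ = x * (a * x⁻¹ * a⁻¹) := by simp only [commutatorElement_def]; group
  rw [h3, phi_mul hx (hd _ h1).2, ← (hd _ h1).2 _ (hd x hx).1, h2]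
  simp only [commutatorElement_def ⁅x, d⁆, mul_assoc]

theorem tri {A N H Z : Subgroup G} {a : ℕ} (nN : A ≤ normalizer (N : Set G))
    (nH : A ≤ normalizer (H : Set G)) (nZ : A ≤ normalizer (Z : Set G))
    (hN : ∀ m, N ≤ normalizer ((iterCommutator Z A m : Subgroup G) : Set G))
    (hH : ∀ m, H ≤ normalizer ((iterCommutator Z A m : Subgroup G) : Set G))
    (h0 : ⁅N, H⁆ ≤ Z) (ha : ⁅N, iterCommutator H A a⁆ = ⊥) : ∀ k j m, m + a ≤ k + j + 1 →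
      ⁅iterCommutator N A k, iterCommutator H A j⁆ ≤ iterCommutator Z A m := by
  have l1 := PGroup.iterCommutator_le nN
  have l2 := PGroup.iterCommutator_le nH
  intro k
  induction k with
  | zero =>
    rintro j (_ | m) hm
    · exact (commutator_mono le_rfl (l2 j)).trans h0
    · exact ((commutator_mono le_rfl (PGroup.iterCommutator_antitone nH (by omega))).trans
        ha.le).trans bot_le
  | succ k ih =>
    rintro j (_ | m) hm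
    · exact (commutator_mono (l1 _) (l2 j)).trans h0
    · refine Core.three_subgroups ((l1 k).trans (hN _))
        (PGroup.le_normalizer_iterCommutator nZ le_normalizer _) ((l2 j).trans (hH _)) ?_ ?_
      · rw [commutator_comm, commutator_comm A]
        exact ih (j + 1) (m + 1) (by omega)
      · rw [commutator_comm (iterCommutator H A j)]
        exact commutator_mono (ih j m (by omega)) le_rfl

theorem surj_of_map [Finite G] {A B C M : Subgroup G} (f : G → G) (hf : ∀ a ∈ A, f a ∈ M)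
    (h : ∀ a₁ ∈ A, ∀ a₂ ∈ A, (f a₁)⁻¹ * f a₂ ∈ C → a₁⁻¹ * a₂ ∈ B)
    (hle : C.relIndex M ≤ B.relIndex A) {m : G} (hm : m ∈ M) : ∃ a ∈ A, (f a)⁻¹ * m ∈ C := by
  have hi : Function.Injective (fun q : A ⧸ B.subgroupOf A =>
      ((⟨f q.out, hf _ q.out.2⟩ : M) : M ⧸ C.subgroupOf M)) := fun q₁ q₂ hq => by
    rw [← QuotientGroup.out_eq' q₁, ← QuotientGroup.out_eq' q₂, QuotientGroup.eq]
    have := QuotientGroup.eq.mp hq
    exact h _ q₁.out.2 _ q₂.out.2 this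
  obtain ⟨q, hq⟩ := (hi.bijective_of_nat_card_le hle).2 ((⟨m, hm⟩ : M) : M ⧸ C.subgroupOf M)
  have := QuotientGroup.eq.mp hq
  exact ⟨_, q.out.2, this⟩

/-- The centraliser in `A`. -/
abbrev cA (A W : Subgroup G) : Subgroup G := A ⊓ centralizer (W : Set G)

/-- Subgroups of `Z` giving a replacement for `A`. -/
def Good (A Z W : Subgroup G) : Prop :=
  A ⊓ Z ≤ W ∧ W ≤ Z ∧ Nat.card A * Nat.card ↥(A ⊓ Z) ≤ Nat.card (cA A W) * Nat.card W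

/-- `⁅⁅w, a⁆, a'⁆` is `⁅w, c⁆` on `W`. -/
def Pc (A W : Subgroup G) (a a' : G) : Prop := ∃ c ∈ A, ∀ w ∈ W, ⁅w, c⁆ = ⁅⁅w, a⁆, a'⁆

/-- The subgroup attached to an element. -/
def Wb (A Z : Subgroup G) (b : G) : Subgroup G := closure {g | ∃ a ∈ A, g = ⁅b, a⁆} ⊔ (A ⊓ Z)

/-- The standing hypotheses. -/
structure Ctx (S A Z : Subgroup G) : Prop where
  hA : A ∈ maxIn 0 S
  hZS : Z ≤ S
  hn : Z.Normal
  hc : Z ≤ centralizer (Z : Set G)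

namespace Ctx
variable [Finite G] {S A Z W W₁ W₂ : Subgroup G} (h : Ctx S A Z)
include h

omit [Finite G] in
theorem cAA : A ≤ centralizer (A : Set G) :=
  fun a ha b hb => PGroup.isMulCommutative_iff.mp h.hA.2.1.1 b hb a ha

omit [Finite G] in
theorem dz {w : G} (hw : w ∈ Z) (g : G) : ⁅w, g⁆ ∈ Z :=
  have := h.hn
  commutator_le_left Z ⊤ (commutator_mem_commutator hw (mem_top g))

omit [Finite G] in
theorem dmul {v w : G} (hv : v ∈ Z) (hw : w ∈ Z) (g : G) : ⁅v * w, g⁆ = ⁅w, g⁆ * ⁅v, g⁆ :=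
  phi_mul hv (h.hc (h.dz hw g))

omit [Finite G] in
theorem dcomm {w a a' : G} (hw : w ∈ Z) (ha : a ∈ A) (ha' : a' ∈ A) :
    ⁅⁅w, a⁆, a'⁆ = ⁅⁅w, a'⁆, a⁆ :=
  phi hw (le_normalizer_of_normal' h.hn (mem_top a)) (fun _ hy => ⟨h.dz hy _, h.hc (h.dz hy _)⟩)
    (h.cAA ha' a ha)

omit [Finite G] in
theorem dC {w a : G} (hw : w ∈ A ⊓ Z) (ha : a ∈ A) : ⁅w, a⁆ = 1 :=
  commutatorElement_eq_one_iff_mul_comm.2 (h.cAA ha w hw.1)

omit [Finite G] in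
theorem comm_sup (h2 : W ≤ Z) : IsMulCommutative ↥(cA A W ⊔ W) :=
  PGroup.isMulCommutative_sup (PGroup.isMulCommutative_of_le inf_le_left h.hA.2.1.1)
    (PGroup.isMulCommutative_iff.mpr fun a ha _ hb => h.hc (h2 hb) a (h2 ha)) inf_le_right

omit [Finite G] in
theorem card_sup (h1 : A ⊓ Z ≤ W) (h2 : W ≤ Z) :
    Nat.card ↥(cA A W ⊔ W) * Nat.card ↥(A ⊓ Z) = Nat.card (cA A W) * Nat.card W := by
  rw [← Core.card_sup_mul_card_inf (inf_le_right.trans (centralizer_le_normalizer _))]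
  congr 3
  exact le_antisymm (le_inf (le_inf inf_le_left ((inf_le_right.trans h.hc).trans
    (centralizer_le h2))) h1) (inf_le_inf inf_le_left h2)

omit [Finite G] in
theorem card_le (h1 : A ⊓ Z ≤ W) (h2 : W ≤ Z) :
    Nat.card (cA A W) * Nat.card W ≤ Nat.card A * Nat.card ↥(A ⊓ Z) := by
  rw [← h.card_sup h1 h2]
  exact Nat.mul_le_mul_right _ (h.hA.2.2 _ (sup_le (inf_le_left.trans h.hA.1) (h2.trans h.hZS))
    (isElementaryAbelian_zero_iff.2 (h.comm_sup h2)))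

theorem mem_of_good (hW : Good A Z W) : cA A W ⊔ W ∈ maxIn 0 S := by
  refine mem_maxIn_of_card_le h.hA (sup_le (inf_le_left.trans h.hA.1) (hW.2.1.trans h.hZS))
    (isElementaryAbelian_zero_iff.2 (h.comm_sup hW.2.1)) ?_
  have := hW.2.2
  rw [← h.card_sup hW.1 hW.2.1] at this
  exact Nat.le_of_mul_le_mul_right this Nat.card_pos

theorem good_sup (h1 : Good A Z W₁) (h2 : Good A Z W₂) :
    Good A Z (W₁ ⊔ W₂) ∧ cA A (W₁ ⊓ W₂) ≤ cA A W₁ ⊔ cA A W₂ := by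
  have e1 := Core.card_sup_mul_card_inf (H := W₁) (N := W₂)
    (((h1.2.1.trans h.hc).trans (centralizer_le h2.2.1)).trans (centralizer_le_normalizer _))
  have e2 := Core.card_sup_mul_card_inf (H := cA A W₁) (N := cA A W₂)
    (((inf_le_left.trans h.cAA).trans (centralizer_le inf_le_left)).trans
      (centralizer_le_normalizer _))
  have e3 : cA A W₁ ⊓ cA A W₂ ≤ cA A (W₁ ⊔ W₂) := le_inf (inf_le_left.trans inf_le_left)
    (le_centralizer_iff.1 (sup_le (le_centralizer_iff.1 (inf_le_left.trans inf_le_right))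
      (le_centralizer_iff.1 (inf_le_right.trans inf_le_right))))
  have e4 : cA A W₁ ⊔ cA A W₂ ≤ cA A (W₁ ⊓ W₂) :=
    sup_le (inf_le_inf_left _ (centralizer_le inf_le_left))
      (inf_le_inf_left _ (centralizer_le inf_le_right))
  have s1 := h1.1.trans (le_sup_left : W₁ ≤ W₁ ⊔ W₂)
  have s2 := sup_le h1.2.1 h2.2.1
  have i1 := h.card_le s1 s2
  have i2 := h.card_le (le_inf h1.1 h2.1) (inf_le_left.trans h1.2.1)
  have i3 := card_le_of_le e3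
  have i4 := card_le_of_le e4
  have i5 := Nat.mul_le_mul h1.2.2 h2.2.2
  set M := Nat.card A * Nat.card ↥(A ⊓ Z)
  have hM : 0 < M := Nat.mul_pos Nat.card_pos Nat.card_pos
  have i6 : M * M ≤ (Nat.card ↥(cA A W₁ ⊔ cA A W₂) * Nat.card ↥(W₁ ⊓ W₂)) *
      (Nat.card ↥(cA A W₁ ⊓ cA A W₂) * Nat.card ↥(W₁ ⊔ W₂)) :=
    i5.trans (le_of_eq (by
      rw [mul_mul_mul_comm, ← e1, ← e2]; ring))
  have i7 := (Nat.mul_le_mul_right (Nat.card ↥(W₁ ⊓ W₂)) i4).trans i2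
  have i8 := Nat.mul_le_mul_right (Nat.card ↥(W₁ ⊔ W₂)) i3
  refine ⟨⟨s1, s2, le_trans ?_ i8⟩, (eq_of_le_of_card_ge e4 ?_).ge⟩
  · exact Nat.le_of_mul_le_mul_left (i6.trans (Nat.mul_le_mul_right _ i7)) hM
  · exact Nat.le_of_mul_le_mul_right (i2.trans (Nat.le_of_mul_le_mul_right
      (i6.trans (Nat.mul_le_mul_left _ (i8.trans i1))) hM)) Nat.card_pos

theorem pc_sup {a a' : G} (h1 : Good A Z W₁) (h2 : Good A Z W₂) (p1 : Pc A W₁ a a')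
    (p2 : Pc A W₂ a a') : Pc A (W₁ ⊔ W₂) a a' := by
  obtain ⟨c₁, hc₁, p1⟩ := p1
  obtain ⟨c₂, hc₂, p2⟩ := p2
  have e1 : c₁⁻¹ * c₂ ∈ cA A (W₁ ⊓ W₂) := ⟨A.mul_mem (A.inv_mem hc₁) hc₂, fun w hw => by
    have := (p1 w hw.1).trans (p2 w hw.2).symm
    simp only [commutatorElement_def, mul_assoc, mul_right_inj] at this
    calc w * (c₁⁻¹ * c₂) = c₁⁻¹ * (c₁ * (w⁻¹ * c₁⁻¹))⁻¹ * c₂ := by group
      _ = _ := by rw [this]; group⟩
  obtain ⟨d₁, hd₁, d₂, hd₂, e⟩ := exists_mul_of_mem_sup (((inf_le_left.trans h.cAA).trans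
    (centralizer_le inf_le_left)).trans (centralizer_le_normalizer _)) ((h.good_sup h1 h2).2 e1)
  have k : ∀ {w c d : G}, w * d = d * w → ⁅w, c * d⁆ = ⁅w, c⁆ := fun {w c d} e => by
    calc ⁅w, c * d⁆ = w * c * w⁻¹ * (w * d) * w⁻¹ * d⁻¹ * c⁻¹ := by
          simp only [commutatorElement_def]; group
      _ = _ := by rw [e]; simp only [commutatorElement_def]; group
  refine ⟨c₁ * d₁, mul_mem hc₁ hd₁.1, fun w hw => ?_⟩
  obtain ⟨w₁, hw₁, w₂, hw₂, rfl⟩ := exists_mul_of_mem_sup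
    (((h2.2.1.trans h.hc).trans (centralizer_le h1.2.1)).trans (centralizer_le_normalizer _)) hw
  have z1 := h1.2.1 hw₁
  have z2 := h2.2.1 hw₂
  have e' : c₁ * d₁ = c₂ * d₂⁻¹ := by rw [eq_mul_inv_iff_mul_eq, mul_assoc, ← e]; group
  rw [h.dmul z1 z2, h.dmul z1 z2, h.dmul (h.dz z2 _) (h.dz z1 _), k (hd₁.2 _ hw₁), p1 _ hw₁, e',
    k ((centralizer (W₂ : Set G)).inv_mem hd₂.2 _ hw₂), p2 _ hw₂]
  exact h.hc (h.dz (h.dz z1 _) _) _ (h.dz (h.dz z2 _) _)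

omit [Finite G] in
theorem wb_le {b : G} (hb : b ∈ Z) : Wb A Z b ≤ Z :=
  sup_le ((closure_le _).2 (by rintro _ ⟨a, -, rfl⟩; exact h.dz hb a)) inf_le_right

omit h [Finite G] in
theorem mem_wb {b a : G} (ha : a ∈ A) : ⁅b, a⁆ ∈ Wb A Z b :=
  mem_sup_left (subset_closure ⟨a, ha, rfl⟩)

omit [Finite G] in
theorem mem_cA_wb {b e : G} (he : e ∈ A) (h1 : ∀ a ∈ A, ⁅⁅b, a⁆, e⁆ = 1) :
    e ∈ cA A (Wb A Z b) := by
  refine ⟨he, (le_centralizer_iff.1 (sup_le ((closure_le _).2 ?_) fun w hw => ?_) :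
    zpowers e ≤ centralizer (Wb A Z b : Set G)) (mem_zpowers e)⟩
  · rintro _ ⟨a, ha, rfl⟩ _ ⟨n, rfl⟩
    exact ((commutatorElement_eq_one_iff_commute.1 (h1 a ha)).zpow_right n).eq.symm
  · rintro _ ⟨n, rfl⟩
    exact h.cAA hw.1 _ (zpow_mem he n)

theorem good_wb {b : G} (hb : b ∈ Z) : Good A Z (Wb A Z b) ∧ ∀ a ∈ A, ∀ a' ∈ A,
    Pc A (Wb A Z b) a a' := by
  have hw := h.wb_le hb
  have hf : ∀ a₁ ∈ A, ∀ a₂ ∈ A, ⁅b, a₁⁆⁻¹ * ⁅b, a₂⁆ ∈ A ⊓ Z → a₁⁻¹ * a₂ ∈ cA A (Wb A Z b) := by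
    intro a₁ h₁ a₂ h₂ e
    have h3 := mul_mem (inv_mem h₁) h₂
    refine h.mem_cA_wb h3 fun a ha => ?_
    rw [h.dcomm hb ha h3]
    refine h.dC ⟨?_, h.dz hb _⟩ ha
    have h5 : ⁅b, a₁⁻¹ * a₂⁆ = a₁⁻¹ * (⁅b, a₁⁆⁻¹ * ⁅b, a₂⁆) * a₁ := by
      simp only [commutatorElement_def]; group
    rw [h5]
    exact A.mul_mem (A.mul_mem (A.inv_mem h₁) e.1) h₁
  have e1 : Nat.card (cA A (Wb A Z b)) * (cA A (Wb A Z b)).relIndex A = Nat.card A :=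
    Core.card_mul_relIndex inf_le_left
  have e2 : Nat.card ↥(A ⊓ Z) * (A ⊓ Z).relIndex (Wb A Z b) = Nat.card (Wb A Z b) :=
    Core.card_mul_relIndex le_sup_right
  have i1 := h.card_le (W := Wb A Z b) le_sup_right hw
  have p1 : 0 < Nat.card (cA A (Wb A Z b)) * Nat.card ↥(A ⊓ Z) :=
    Nat.mul_pos Nat.card_pos Nat.card_pos
  refine ⟨⟨le_sup_right, hw, ?_⟩, fun a ha a' ha' => ?_⟩
  · have := relIndex_le_of_map (M := Wb A Z b) (fun a => ⁅b, a⁆) (fun a ha => mem_wb ha) hf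
    nlinarith [Nat.mul_le_mul_left (Nat.card (cA A (Wb A Z b)) * Nat.card ↥(A ⊓ Z)) this]
  have i2 : (A ⊓ Z).relIndex (Wb A Z b) ≤ (cA A (Wb A Z b)).relIndex A :=
    Nat.le_of_mul_le_mul_left (by nlinarith) p1
  have hm : ⁅⁅b, a⁆, a'⁆ ∈ Wb A Z b := by
    have : ⁅⁅b, a⁆, a'⁆ = ⁅b, a⁆ * (⁅b, a'⁆⁻¹ * ⁅b, a' * a⁆)⁻¹ := by
      simp only [commutatorElement_def]; group
    rw [this]
    exact mul_mem (mem_wb ha) (inv_mem (mul_mem (inv_mem (mem_wb ha')) (mem_wb (mul_mem ha' ha))))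
  obtain ⟨c, hc, e⟩ := surj_of_map (fun a => ⁅b, a⁆) (fun a ha => mem_wb ha) hf i2 hm
  refine ⟨c, hc, fun w hw' => ?_⟩
  obtain ⟨u, hu, γ, hγ, rfl⟩ := exists_mul_of_mem_sup
    (((inf_le_right.trans h.hc).trans (centralizer_le (SetLike.coe_subset_coe.2 (le_sup_left.trans hw)))).trans
      (centralizer_le_normalizer _)) hw'
  have hz : ∀ {u}, u ∈ closure {g | ∃ a ∈ A, g = ⁅b, a⁆} → u ∈ Z := fun hu => hw (mem_sup_left hu)
  rw [h.dmul (hz hu) hγ.2, h.dmul (hz hu) hγ.2, h.dC hγ hc, h.dC hγ ha, one_mul, one_mul]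
  clear hw'
  induction hu using closure_induction with
  | mem u hu =>
    obtain ⟨a'', ha'', rfl⟩ := hu
    have : ⁅⁅b, a⁆, a'⁆ = ⁅b, c⁆ * (⁅b, c⁆⁻¹ * ⁅⁅b, a⁆, a'⁆) := by group
    rw [h.dcomm hb ha'' hc, h.dcomm hb ha'' ha, h.dcomm (h.dz hb _) ha'' ha', this,
      h.dmul (h.dz hb _) e.2, h.dC e ha'', one_mul]
  | one => simp
  | mul u v hu hv ih ih' =>
    rw [h.dmul (hz hu) (hz hv), h.dmul (hz hu) (hz hv), h.dmul (h.dz (hz hv) _) (h.dz (hz hu) _),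
      ih, ih']
    exact h.hc (h.dz (h.dz (hz hu) _) _) _ (h.dz (h.dz (hz hv) _) _)
  | inv u hu ih =>
    rw [phi_inv (hz hu) (h.hc (h.dz (hz hu) _)), phi_inv (hz hu) (h.hc (h.dz (hz hu) _)),
      phi_inv (h.dz (hz hu) _) (h.hc (h.dz (h.dz (hz hu) _) _)), ih]

theorem good_top {a a' : G} (ha : a ∈ A) (ha' : a' ∈ A) :
    Good A Z (⁅Z, A⁆ ⊔ (A ⊓ Z)) ∧ Pc A (⁅Z, A⁆ ⊔ (A ⊓ Z)) a a' := by
  have hb : ∀ b ∈ Z, Wb A Z b ≤ ⁅Z, A⁆ ⊔ (A ⊓ Z) := fun b hb => sup_le_sup_right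
    ((closure_le _).2 (by rintro _ ⟨a, ha, rfl⟩; exact commutator_mem_commutator hb ha)) _
  obtain ⟨W, h0, ⟨h1, h2, h3⟩, hm⟩ := Core.exists_maximal_ge
    (P := fun W => W ≤ ⁅Z, A⁆ ⊔ (A ⊓ Z) ∧ Good A Z W ∧ Pc A W a a') (H := Wb A Z 1)
    ⟨hb 1 (one_mem Z), (h.good_wb (one_mem Z)).1, (h.good_wb (one_mem Z)).2 a ha a' ha'⟩
  have : W = ⁅Z, A⁆ ⊔ (A ⊓ Z) := le_antisymm h1 (sup_le (commutator_le.2 fun b hb' x hx => by
    have g := h.good_wb hb'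
    rw [← hm _ ⟨sup_le h1 (hb b hb'), (h.good_sup h2 g.1).1, h.pc_sup h2 g.1 h3 (g.2 a ha a' ha')⟩
      le_sup_left]
    exact mem_sup_right (mem_wb hx)) h2.1)
  exact this ▸ ⟨h2, h3⟩

end Ctx

end Cfsg.Lib.PLocal.JTr
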