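import Cfsg.Agent.Lib.PLocal.JTr
import Cfsg.Agent.Lib.PGroup.Critical

/-! An abelian subgroup of largest order acting with degree at most six on chief factors. -/

set_option autoImplicit false

namespace Cfsg.Lib.PLocal.JTr

open Subgroup Cfsg.Lib.Transfer
open scoped commutatorElement

variable {G : Type*} [Group G] [Finite G] {p : ℕ} [hp : Fact p.Prime]

/-- An extremal abelian subgroup outside `P`. -/
structure Ext (p : ℕ) (S P H A : Subgroup G) : Prop where
  hS : IsPGroup p S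
  hPS : P ≤ S
  hHP : H ≤ P
  nH : H.Normal
  h3 : ⁅H, P⁆ ≤ H ⊓ centralizer (H : Set G)
  hA : A ∈ maxIn 0 S
  m1 : ∀ B ∈ maxIn 0 S, A ⊓ (H ⊓ centralizer (H : Set G)) < B ⊓ (H ⊓ centralizer (H : Set G)) →
    B ≤ P
  m2 : ∀ B ∈ maxIn 0 S, A ⊓ H < B ⊓ H → B ≤ P ∨
    Nat.card ↥(B ⊓ (H ⊓ centralizer (H : Set G))) < Nat.card ↥(A ⊓ (H ⊓ centralizer (H : Set G)))

namespace Ext
variable {S P H A : Subgroup G} (h : Ext p S P H A)
include h

local notation "Z" => H ⊓ centralizer (H : Set G)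

omit hp [Finite G] in
theorem ctx : Ctx S A Z :=
  have := h.nH
  ⟨h.hA, inf_le_left.trans (h.hHP.trans h.hPS), inferInstance,
    inf_le_right.trans (centralizer_le (SetLike.coe_subset_coe.2 inf_le_left))⟩

omit h hp [Finite G] in
theorem cZ {X : Subgroup G} (hX : X ≤ Z) : H ≤ normalizer (X : Set G) :=
  (le_centralizer_iff.1 (hX.trans inf_le_right)).trans (centralizer_le_normalizer _)

/-- The case where the centre of `H` does not normalise `A`. -/
theorem case_one (hn : ¬ Z ≤ normalizer (A : Set G)) : iterCommutator H A 4 ≤ Z ∧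
    ∀ X : Subgroup G, X.Normal → X ≤ Z → iterCommutator X A 3 ≤ ⁅X, P⁆ := by
  have c := h.ctx
  have nZ := c.hn
  have nH := h.nH
  obtain ⟨b, hb, hbN, hbA⟩ := exists_mem_normalizer_normalizer h.hS c.hZS
    (le_normalizer_of_normal' nZ) hn
  have b1 : ∀ a ∈ A, ∀ a' ∈ A, ⁅⁅b, a⁆, a'⁆ ∈ A ⊓ Z := fun a ha a' ha' => by
    have h1 : ⁅b, a⁆ ∈ S ⊓ normalizer (A : Set G) := by
      have h2 : a ∈ S ⊓ normalizer (A : Set G) := ⟨h.hA.1 ha, le_normalizer ha⟩
      exact mul_mem ((mem_normalizer_iff.mp hbN a).mp h2) (inv_mem h2)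
    exact ⟨A.mul_mem ((mem_normalizer_iff.mp h1.2 a').mp ha') (A.inv_mem ha'),
      c.dz (c.dz hb _) _⟩
  have g := (c.good_wb hb).1
  have b2 : cA A (Wb A Z b) ≤ P := by
    refine le_sup_left.trans (h.m1 _ (c.mem_of_good g) (lt_of_lt_of_le
      (lt_of_le_of_ne g.1 fun e => hbA (mem_normalizer_of_conj_le ?_))
      (le_inf le_sup_right g.2.1)))
    rw [conj_le_iff]
    intro a ha
    have h1 : ⁅b, a⁆ ∈ A ⊓ Z := e ▸ Ctx.mem_wb ha
    simpa [commutatorElement_def] using A.mul_mem h1.1 ha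
  set W := ⁅Z, A⁆ ⊔ (A ⊓ Z)
  have gW : Good A Z W := (c.good_top A.one_mem A.one_mem).1
  have b3 : ∀ a ∈ A, ∀ a' ∈ A, ∃ e ∈ A ⊓ P, ∀ w ∈ W, ⁅w, e⁆ = ⁅⁅w, a⁆, a'⁆ := fun a ha a' ha' => by
    obtain ⟨e, he, k⟩ := (c.good_top ha ha').2
    refine ⟨e, ⟨he, b2 (c.mem_cA_wb he fun x hx => ?_)⟩, k⟩
    rw [k _ (mem_sup_left (commutator_mem_commutator hb hx)), c.dC (b1 x hx a ha) ha']
  have b4 : cA A W ≤ P := fun e he => b2 (c.mem_cA_wb he.1 fun x hx =>
    commutatorElement_eq_one_iff_mul_comm.2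
      (he.2 _ (mem_sup_left (commutator_mem_commutator hb hx))))
  have l1 : ⁅H, A⁆ ≤ H := commutator_le_left H A
  constructor
  · have hZA : ⁅Z, A⁆ ≤ Z := commutator_le_left _ A
    have b5 : ⁅⁅H, A⁆, cA A W⁆ ≤ ⁅Z, A⁆ := by
      refine Core.three_subgroups (cZ hZA) (normalizer_commutator_ge_right _ _)
        (inf_le_left.trans (normalizer_commutator_ge_right _ _)) ?_ ?_
      · rw [commutator_eq_bot_iff_le_centralizer.2 (c.cAA.trans (centralizer_le
          (SetLike.coe_subset_coe.2 inf_le_left))), commutator_bot_left]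
        exact bot_le
      · rw [commutator_comm (cA A W)]
        exact commutator_mono ((commutator_mono le_rfl b4).trans h.h3) le_rfl
    have b6 : ⁅⁅⁅H, A⁆, A⁆, A⁆ ≤ (A ⊔ Z) ⊓ H := by
      refine comm_comm_le (((commutator_mono l1 le_rfl).trans l1).trans
        (Coprime.le_normalizer_of_commutator_le inf_le_right (le_inf
          (((commutator_mono le_rfl h.hHP).trans h.h3).trans le_sup_right) (commutator_le_self H))))
        fun x hx a ha a' ha' => ?_
      obtain ⟨e, he, k⟩ := b3 a ha a' ha'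
      have hy := l1 (commutator_mem_commutator (l1 (commutator_mem_commutator (l1 hx) ha)) ha')
      have hz : ⁅x, e⁆ ∈ Z := h.h3 (commutator_mem_commutator (l1 hx) he.2)
      refine ⟨?_, hy⟩
      have h1 : ⁅x, e⁆⁻¹ * ⁅⁅x, a⁆, a'⁆ ∈ S ⊓ centralizer ((cA A W ⊔ W : Subgroup G) : Set G) := by
        have h2 := H.mul_mem (H.inv_mem hz.1) hy
        refine ⟨h.hPS (h.hHP h2), (le_centralizer_iff.1 (sup_le (fun d hd => ?_) fun w hw => ?_) :
          zpowers _ ≤ centralizer ((cA A W ⊔ W : Subgroup G) : Set G)) (mem_zpowers _)⟩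
        · have hd' : ∀ y ∈ H, ⁅y, d⁆ ∈ Z := fun y hy =>
            h.h3 (commutator_mem_commutator hy (b4 hd))
          have q : ∀ y ∈ H, ∀ a ∈ A, ⁅⁅y, a⁆, d⁆ = ⁅⁅y, d⁆, a⁆ := fun y hy a ha =>
            phi hy (le_normalizer_of_normal' nH (mem_top a)) hd' (c.cAA hd.1 a ha)
          have h3 : ⁅⁅x, e⁆⁻¹ * ⁅⁅x, a⁆, a'⁆, d⁆ = 1 := by
            rw [phi_mul (H.inv_mem hz.1) (hd' _ hy).2, phi_inv hz.1 (hd' _ hz.1).2,
              q _ (l1 (commutator_mem_commutator (l1 hx) ha)) _ ha', q _ (l1 hx) _ ha,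
              q _ (l1 hx) _ he.1, k _ (mem_sup_left (b5 (commutator_mem_commutator hx hd))),
              mul_inv_cancel]
          rintro _ ⟨n, rfl⟩
          exact ((commutatorElement_eq_one_iff_commute.1 h3).zpow_left n).eq
        · rintro _ ⟨n, rfl⟩
          exact (gW.2.1 hw).2 _ (H.zpow_mem h2 n)
      rw [inf_centralizer_eq_of_mem_maxIn_zero (c.mem_of_good gW)] at h1
      have h4 := (sup_le_sup inf_le_left gW.2.1 : cA A W ⊔ W ≤ A ⊔ Z) h1
      exact (Subgroup.mul_mem_cancel_left _ (inv_mem (mem_sup_right hz : ⁅x, e⁆ ∈ A ⊔ Z))).1 h4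
    refine (commutator_mono (b6.trans inf_le_left) le_rfl).trans (Core.commutator_sup_le
      (le_normalizer_of_normal' nZ) (le_normalizer_of_normal' nZ) ?_ hZA)
    rw [commutator_eq_bot_iff_le_centralizer.2 c.cAA]
    exact bot_le
  · intro X nX hX
    have l2 : ⁅X, A⁆ ≤ X := commutator_le_left X A
    refine comm_comm_le ((((commutator_mono l2 le_rfl).trans l2).trans
      (normalizer_commutator_ge_left _ _))) fun x hx a ha a' ha' => ?_
    obtain ⟨e, he, k⟩ := b3 a ha a' ha'
    rw [← k x (mem_sup_left (commutator_mono hX le_rfl hx))]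
    exact commutator_mem_commutator (l2 hx) he.2

/-- The case where the centre of `H` normalises `A`. -/
theorem case_two (hp2 : p ≠ 2) (hn : Z ≤ normalizer (A : Set G)) : iterCommutator H A 5 ≤ Z := by
  have c := h.ctx
  have nZ := c.hn
  have nH := h.nH
  have aH : A ≤ normalizer (H : Set G) := le_normalizer_of_normal' nH
  have aZ : A ≤ normalizer ((Z : Subgroup G) : Set G) := le_normalizer_of_normal' nZ
  have cA0 : ⁅A, A⁆ = ⊥ := commutator_eq_bot_iff_le_centralizer.2 c.cAA
  have q2 : ∀ {X : Subgroup G}, X ≤ normalizer (A : Set G) → ⁅X, A⁆ ≤ A := fun hX => by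
    rw [commutator_comm]; exact le_normalizer_iff_commutator_le_left.mp hX
  have q3 : ∀ {X : Subgroup G}, X ≤ normalizer (A : Set G) → iterCommutator X A 2 = ⊥ := fun hX =>
    eq_bot_iff.2 ((commutator_mono (q2 hX) le_rfl).trans cA0.le)
  have lH := PGroup.iterCommutator_le aH
  have nHZ : ∀ m, H ≤ normalizer ((iterCommutator Z A m : Subgroup G) : Set G) := fun m =>
    cZ (PGroup.iterCommutator_le aZ m)
  have hHH : ⁅H, H⁆ ≤ Z := (commutator_mono le_rfl h.hHP).trans h.h3
  have step : ∀ n, 6 ≤ n → iterCommutator H A n ≤ Z → iterCommutator H A (n - 1) ≤ Z := by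
    intro n h6 hz
    set B := iterCommutator H A ((n + 1) / 2) with hB
    by_cases hBA : B ≤ normalizer (A : Set G)
    · refine iterCommutator_le_of_le aZ (i := (n + 1) / 2 + 2) ?_ (by omega)
      rw [PGroup.iterCommutator_add, q3 hBA]
      exact bot_le
    have b1 : ⁅B, B⁆ ≤ A := (tri (a := n) aH aH aZ nHZ nHZ hHH
      (commutator_eq_bot_iff_le_centralizer.2 (le_centralizer_iff.1 (hz.trans inf_le_right)))
      _ _ 1 (by omega)).trans (q2 hn)
    have aB : A ≤ normalizer (B : Set G) := PGroup.le_normalizer_iterCommutator aH le_normalizer _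
    have hBS : B ≤ S := (lH _).trans (h.hHP.trans h.hPS)
    obtain ⟨x, r⟩ := exists_replSetup hp2 (h.hS.to_le (sup_le h.hA.1 hBS)) le_sup_left le_sup_right
      (sup_le aB le_normalizer) h.hA.2.1.1 b1 hBA
    have hR : repl A x ∈ maxIn 0 S := mem_maxIn_of_card_le h.hA
      (sup_le (inf_le_left.trans h.hA.1) (r.commElt_le_B.trans hBS))
      (isElementaryAbelian_zero_iff.2 r.comm_repl) r.card_repl.ge
    have b2 : ⁅⁅H, A⁆, A ⊓ H⁆ ≤ A := by
      refine le_trans (Core.three_subgroups (nHZ 1) (normalizer_commutator_ge_right _ _)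
        (inf_le_left.trans (normalizer_commutator_ge_right _ _)) ?_ ?_) (q2 hn)
      · rw [eq_bot_iff.2 ((commutator_mono le_rfl inf_le_left).trans cA0.le), commutator_bot_left]
        exact bot_le
      · exact commutator_mono ((commutator_mono inf_le_right le_rfl).trans hHH) le_rfl
    have b3 : A ⊓ H ≤ repl A x := fun y hy => mem_sup_left <| mem_inf.2 ⟨hy.1, by
      rw [mem_conj]
      have : x⁻¹ * y * x = ⁅x⁻¹, y⁆ * y := by simp only [commutatorElement_def]; group
      rw [this]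
      exact mul_mem (b2 (commutator_mem_commutator (PGroup.iterCommutator_antitone aH
        (show 1 ≤ (n + 1) / 2 by omega) (inv_mem r.mem)) hy)) hy.1⟩
    have b4 : repl A x ≤ P := by
      refine (h.m2 _ hR (lt_of_le_of_ne (le_inf b3 inf_le_right) fun e => r.inf_lt.not_ge
        (le_inf (((inf_le_inf_left _ (lH _)).trans e.ge).trans inf_le_left)
          inf_le_right))).resolve_right (not_lt.2 (card_le_of_le ?_))
      exact le_inf ((inf_le_inf_left _ inf_le_left).trans b3) inf_le_right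
    have b5 := tri (a := 2) aH r.le_normalizer_repl aZ nHZ (fun m =>
      PGroup.le_normalizer_iterCommutator (le_normalizer_of_normal' nZ) r.repl_le_normalizer m)
      ((commutator_mono le_rfl b4).trans h.h3)
      (by rw [q3 r.repl_le_normalizer, commutator_bot_right]) 3 0 2 le_rfl
    rw [q3 hn, le_bot_iff, commutator_eq_bot_iff_le_centralizer] at b5
    have b6 : iterCommutator H A 3 ≤ repl A x :=
      (le_inf ((lH 3).trans (h.hHP.trans h.hPS)) b5).trans
        (inf_centralizer_eq_of_mem_maxIn_zero hR).le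
    refine iterCommutator_le_of_le aZ (i := 3 + 2) ?_ (by omega)
    rw [PGroup.iterCommutator_add, q3 (b6.trans r.repl_le_normalizer)]
    exact bot_le
  have : ∀ k, iterCommutator H A (5 + k) ≤ Z → iterCommutator H A 5 ≤ Z := fun k => by
    induction k with
    | zero => exact id
    | succ k ih => exact fun e => ih (step (5 + (k + 1)) (by omega) e)
  refine this (Nat.card H) (le_trans (le_of_eq (PGroup.iterCommutator_eq_bot_of_card_le
    (h.hS.to_le (h.hHP.trans h.hPS)) (h.hS.to_le h.hA.1) aH ?_)) bot_le)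
  exact (Nat.lt_pow_self hp.out.one_lt).le.trans (Nat.pow_le_pow_right hp.out.pos (by omega))

theorem degree (hp2 : p ≠ 2) [P.Normal] (h4 : P ⊓ centralizer (H : Set G) ≤ H) {U V : Subgroup G}
    (hUV : IsChiefFactor U V) (hU : U ≤ P) : iterCommutator U A 6 ≤ V := by
  have nZ := h.ctx.hn
  have nH := h.nH
  have hP := h.hS.to_le h.hPS
  have key : ∀ i j, 1 ≤ j → j ≤ i → iterCommutator H A i ≤ Z → (∀ X : Subgroup G, X.Normal →
      X ≤ Z → iterCommutator X A j ≤ ⁅X, P⁆) → iterCommutator U A (i + j - 1) ≤ V := by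
    intro i j h1 h2 h3 h5
    refine iterCommutator_chief_le_of_critical hP (by rw [commutator_comm]; exact h.h3) h4
      (h1.trans h2) (fun U V k hU => ?_) (fun U V k hU => (h5 U k.2.1 hU).trans
        (Core.commutator_le_of_isChiefFactor k P hP.isNilpotent)) h.hHP hUV hU
    have nU := k.2.1
    have nV := k.2.2.1
    rcases IsChiefFactor.inf_le_or k Z with e | e
    · exact (le_inf (PGroup.iterCommutator_le (le_normalizer_of_normal' nU) i)
        ((PGroup.iterCommutator_mono hU le_rfl i).trans h3)).trans e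
    · rw [← e]
      refine (iterCommutator_sup_normal_le _ A V i).trans (sup_le (iterCommutator_le_of_le
        (le_normalizer_of_normal' nV) ((h5 _ inferInstance inf_le_right).trans ?_) h2) le_rfl)
      exact (commutator_mono inf_le_left le_rfl).trans
        (Core.commutator_le_of_isChiefFactor k P hP.isNilpotent)
  by_cases hn : Z ≤ normalizer (A : Set G)
  · refine key 5 2 (by omega) (by omega) (h.case_two hp2 hn) fun X _ hX => ?_
    have : ⁅X, A⁆ ≤ A := by
      rw [commutator_comm]; exact le_normalizer_iff_commutator_le_left.mp (hX.trans hn)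
    exact ((commutator_mono this le_rfl).trans
      (commutator_eq_bot_iff_le_centralizer.2 h.ctx.cAA).le).trans bot_le
  · exact key 4 3 (by omega) (by omega) (h.case_one hn).1 (h.case_one hn).2

end Ext

theorem exists_degree_six (hp2 : p ≠ 2) {S P : Subgroup G} (hS : IsPGroup p S) (hPS : P ≤ S)
    [P.Normal] (hJ : ¬ thompsonSubgroupOf 0 S ≤ P) : ∃ g ∈ S, g ∉ P ∧
      ∀ U V : Subgroup G, IsChiefFactor U V → U ≤ P → iterCommutator U (zpowers g) 6 ≤ V := by
  obtain ⟨H, h1, h2, -, h3, h4⟩ := PGroup.exists_critical_of_subgroup (hS.to_le hPS)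
  have nH : H.Normal := Core.normal_of_top_le_normalizer
    ((le_normalizer_of_normal' inferInstance).trans h2)
  rw [thompsonSubgroupOf_le_iff] at hJ
  push Not at hJ
  obtain ⟨A₀, hA₀, m₀⟩ := Set.exists_max_image {A | A ∈ maxIn 0 S ∧ ¬ A ≤ P}
    (fun A => Nat.card ↥(A ⊓ (H ⊓ centralizer (H : Set G)))) (Set.toFinite _) hJ
  obtain ⟨A, ⟨hA, e⟩, m⟩ := Set.exists_max_image {A | (A ∈ maxIn 0 S ∧ ¬ A ≤ P) ∧
    Nat.card ↥(A₀ ⊓ (H ⊓ centralizer (H : Set G))) ≤ Nat.card ↥(A ⊓ (H ⊓ centralizer (H : Set G)))}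
    (fun A => Nat.card ↥(A ⊓ H)) (Set.toFinite _) ⟨A₀, hA₀, le_rfl⟩
  have x : Ext p S P H A := ⟨hS, hPS, h1, nH, h3, hA.1, fun B hB k => by_contra fun k' =>
    ((m₀ B ⟨hB, k'⟩).trans e).not_gt (card_lt_of_lt k), fun B hB k => by
      by_contra k'
      rw [not_or, not_lt] at k'
      exact (m B ⟨⟨hB, k'.1⟩, e.trans k'.2⟩).not_gt (card_lt_of_lt k)⟩
  obtain ⟨g, hg, hgP⟩ := SetLike.not_le_iff_exists.1 hA.2
  exact ⟨g, hA.1.1 hg, hgP, fun U V k hU => (PGroup.iterCommutator_mono le_rfl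
    (zpowers_le.2 hg) 6).trans (x.degree hp2 h4 k hU)⟩

end Cfsg.Lib.PLocal.JTr
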